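import Cfsg.Statements.S4911
import Cfsg.Agent.H4.Glaub3

set_option autoImplicit false
open Cfsg

namespace Cfsg.Agent.S4911

/-- Let P and K be subgroups of a finite group with P a p-group normalizing K and K of order prime to p. Then the number of P-invariant real-valued irreducible complex characters of K equals the number of conjugacy classes of K that are real (closed under inversion) and P-invariant. Moreover, if every real-valued irreducible character of K is P-invariant, then every real element of K (one conjugate in K to its inverse) is conjugate in K to an element centralized by P. -/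
theorem result {G : Type*} [Group G] [Finite G] (p : ℕ) [Fact p.Prime] (P K : Subgroup G) (hP : IsPGroup p ↥P) (hK : ¬ p ∣ Nat.card ↥K) (hPK : P ≤ Subgroup.normalizer (K : Set G)) : Nat.card {θ : Cfsg.IrrCharacter ↥K // (∀ k : ↥K, ((θ : ↥K → ℂ) k).im = 0) ∧ (∀ x ∈ P, ∀ k k' : ↥K, (k' : G) = x * (k : G) * x⁻¹ → (θ : ↥K → ℂ) k' = (θ : ↥K → ℂ) k)} = Nat.card {c : ConjClasses ↥K // (∀ k : ↥K, ConjClasses.mk k = c → IsConj k k⁻¹) ∧ ∀ k : ↥K, ConjClasses.mk k = c → ∀ x ∈ P, ∀ k' : ↥K, (k' : G) = x * (k : G) * x⁻¹ → ConjClasses.mk k' = c} ∧ ((∀ θ : Cfsg.IrrCharacter ↥K, (∀ k : ↥K, ((θ : ↥K → ℂ) k).im = 0) → (∀ x ∈ P, ∀ k k' : ↥K, (k' : G) = x * (k : G) * x⁻¹ → (θ : ↥K → ℂ) k' = (θ : ↥K → ℂ) k)) → ∀ k : ↥K, IsConj k k⁻¹ → ∃ k' : ↥K, IsConj k k' ∧ ∀ x ∈ P, x * (k' : G) * x⁻¹ = (k' : G)) := by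
  refine ⟨H4.card_real_inv hP hK hPK, fun h k hk => H4.exists_fixed_conj hP hK hPK k ?_⟩
  have e := (H4.card_real_inv hP hK hPK).symm.trans ((Nat.card_congr (Equiv.subtypeEquivRight
    fun θ => and_iff_left_of_imp (h θ))).trans H3.card_real_irr_eq_card_real_classes)
  have hb := (Nat.bijective_iff_injective_and_card (Subtype.map id fun _ h => h.1)).2
    ⟨Subtype.map_injective _ Function.injective_id, e⟩
  obtain ⟨c, hc⟩ := hb.2 ⟨ConjClasses.mk k, fun g hg => by
      obtain ⟨u, rfl⟩ := isConj_iff.1 (ConjClasses.mk_eq_mk_iff_isConj.1 hg).symm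
      obtain ⟨v, hv⟩ := isConj_iff.1 hk
      exact isConj_iff.2 ⟨u * v * u⁻¹, by rw [mul_inv_rev (u * k), mul_inv_rev u k, ← hv]; group⟩⟩
  have hc' : c.1 = ConjClasses.mk k := Subtype.ext_iff.1 hc
  intro x hx k' e'
  exact ConjClasses.mk_eq_mk_iff_isConj.1 (hc'.symm.trans (c.2.2 k hc'.symm x hx k' e').symm)

end Cfsg.Agent.S4911
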