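import Cfsg.Statements.S4912
import Cfsg.Agent.H4.FSInd

set_option autoImplicit false
open Cfsg

namespace Cfsg.Agent.S4912

/-- Let G be a finite group with a non-abelian minimal normal subgroup N, and let φ be an irreducible complex character of N with stabilizer I in G such that φ extends to an irreducible character of I with Frobenius–Schur indicator +1. Put d = φ(1)·[G : I]. Then the number of linear characters of G with Frobenius–Schur indicator +1 is at most [G : I] times the number of irreducible characters of G of degree d with Frobenius–Schur indicator +1. -/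
theorem result {G : Type*} [Group G] [Finite G] (N : Subgroup G) (hN : N.Normal) (hN1 : N ≠ ⊥) (hmin : ∀ M : Subgroup G, M.Normal → M ≤ N → M = ⊥ ∨ M = N) (hna : ¬ IsMulCommutative ↥N) (φ : Cfsg.IrrCharacter ↥N) (I : Subgroup G) (hI : ∀ g : G, g ∈ I ↔ ∀ n n' : ↥N, (n' : G) = g * (n : G) * g⁻¹ → (φ : ↥N → ℂ) n' = (φ : ↥N → ℂ) n) (hNI : N ≤ I) (hext : ∃ ψ : Cfsg.IrrCharacter ↥I, (Nat.card ↥I : ℂ)⁻¹ * ∑ᶠ g : ↥I, (ψ : ↥I → ℂ) (g * g) = 1 ∧ ∀ n : ↥N, (ψ : ↥I → ℂ) (Subgroup.inclusion hNI n) = (φ : ↥N → ℂ) n) : Nat.card {χ : Cfsg.IrrCharacter G // Cfsg.charDegree (χ : G → ℂ) = 1 ∧ (Nat.card G : ℂ)⁻¹ * ∑ᶠ g : G, (χ : G → ℂ) (g * g) = 1} ≤ I.index * Nat.card {χ : Cfsg.IrrCharacter G // Cfsg.charDegree (χ : G → ℂ) = Cfsg.charDegree (φ : ↥N → ℂ) * I.index ∧ (Nat.card G : ℂ)⁻¹ * ∑ᶠ g : G, (χ : G → ℂ) (g * g) = 1} := by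
  classical
  have := Fintype.ofFinite G
  have := Fintype.ofFinite I
  have := Fintype.ofFinite N
  obtain ⟨ψ, hψ1, hψ2⟩ := hext
  simp only [finsum_eq_sum_of_fintype] at hψ1 ⊢
  have hI' : I = H4.inertia N φ := by
    ext g
    rw [hI, H4.mem_inertia]
    exact ⟨fun h => funext fun n => h n _ rfl, fun h n n' e => by
      rw [← congrFun h n, H4.conjFun_apply]; exact congrArg _ (Subtype.ext e)⟩
  have hre : ∀ {H : Type _} [Group H] [Fintype H] {χ : H → ℂ}, IsIrrCharacter H χ →
      H3.fsInd χ = 1 → ∀ g, (starRingEnd ℂ) (χ g) = χ g := by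
    intro H _ _ χ hχ h g
    rcases hχ.fsInd_cases with h2 | h2
    · rw [h] at h2; exact absurd h2.1 one_ne_zero
    · exact Complex.conj_eq_iff_im.2 (h2.2 g)
  have hφre : ∀ n, (starRingEnd ℂ) ((φ : N → ℂ) n) = (φ : N → ℂ) n := fun n => by
    rw [← hψ2]; exact hre ψ.2 hψ1 _
  have hperf : ⁅N, N⁆ = N := by
    refine (hmin _ inferInstance (Subgroup.commutator_le_left N N)).resolve_left fun h => hna ?_
    rw [Subgroup.commutator_eq_bot_iff_le_centralizer] at h
    exact ⟨⟨fun a b => Subtype.ext (h b.2 a a.2)⟩⟩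
  have hlinN : ∀ lam : G → ℂ, IsCharacter G lam → lam 1 = 1 → ∀ n ∈ N, lam n = 1 := by
    intro lam hl h1 n hn
    obtain ⟨f, rfl⟩ := hl.exists_unitsHom h1
    have h2 : ⁅N, N⁆ ≤ f.ker := (Subgroup.commutator_mono le_top le_top).trans
      (Abelianization.commutator_subset_ker f)
    rw [hperf] at h2
    simp only [(f.mem_ker).1 (h2 hn), Units.val_one]
  have hover : ∀ lam : G → ℂ, IsCharacter G lam → lam 1 = 1 →
      classInner (fun n : N => ((fun i : I => lam i) * (ψ : I → ℂ)) (Subgroup.inclusion hNI n))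
        (φ : N → ℂ) ≠ 0 := by
    intro lam hl h1
    have : (fun n : N => ((fun i : I => lam i) * (ψ : I → ℂ)) (Subgroup.inclusion hNI n)) = φ := by
      funext n
      simp only [Pi.mul_apply, Subgroup.coe_inclusion, hlinN lam hl h1 n n.2, hψ2, one_mul]
    rw [this, φ.2.classInner_self]
    exact one_ne_zero
  have hirr : ∀ lam : G → ℂ, IsCharacter G lam → lam 1 = 1 →
      IsIrrCharacter I ((fun i : I => lam i) * (ψ : I → ℂ)) := fun lam hl h1 =>
    H4.isIrr_linear_mul (hl.restrict I) h1 ψ.2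
  have hone : ∀ χ : IrrCharacter G, charDegree (χ : G → ℂ) = 1 → (χ : G → ℂ) 1 = 1 :=
    fun χ h => by rw [← χ.2.cast_charDegree, h, Nat.cast_one]
  let F : {χ : IrrCharacter G // charDegree (χ : G → ℂ) = 1 ∧
      (Nat.card G : ℂ)⁻¹ * ∑ g : G, (χ : G → ℂ) (g * g) = 1} →
      {χ : IrrCharacter G // charDegree (χ : G → ℂ) = charDegree (φ : ↥N → ℂ) * I.index ∧
        (Nat.card G : ℂ)⁻¹ * ∑ g : G, (χ : G → ℂ) (g * g) = 1} := fun lam =>
    ⟨⟨indFun I ((fun i : I => (lam.1 : G → ℂ) i) * (ψ : I → ℂ)),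
      (H4.clifford_corr_irr N φ.2 I hI' hNI (hirr _ lam.1.2.isCharacter (hone _ lam.2.1))
        (hover _ lam.1.2.isCharacter (hone _ lam.2.1))).1⟩, by
      apply H3.charDegree_eq
      have e := hψ2 1
      rw [map_one] at e
      simp only [H4.indFun_one, Pi.mul_apply, OneMemClass.coe_one, hone _ lam.2.1, e, one_mul,
        Nat.cast_mul, φ.2.cast_charDegree, mul_comm], by
      have e := H4.fsInd_indFun_of_extension N φ.2 hφre I hI'.ge hNI
        (hirr _ lam.1.2.isCharacter (hone _ lam.2.1)).isCharacter (fun n => by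
          simp only [Pi.mul_apply, Subgroup.coe_inclusion,
            hlinN _ lam.1.2.isCharacter (hone _ lam.2.1) n n.2, hψ2, one_mul])
      refine e.trans (Eq.trans ?_ hψ1)
      simp only [H3.fsInd, Pi.mul_apply, Subgroup.coe_mul]
      congr 1
      refine Finset.sum_congr rfl fun g _ => ?_
      have e2 := H4.ofReal_norm_sq ((lam.1 : G → ℂ) g)
      rw [H4.norm_linear_char lam.1.2.isCharacter (hone _ lam.2.1), hre lam.1.2 lam.2.2, one_pow,
        Complex.ofReal_one] at e2
      rw [lam.1.2.isCharacter.map_mul_of_apply_one (hone _ lam.2.1), ← e2, one_mul]⟩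
  rw [Nat.card_eq_fintype_card (α := Subtype _), Nat.card_eq_fintype_card (α := Subtype _),
    ← Finset.card_univ, ← Finset.card_univ]
  refine Finset.card_le_mul_card_image_of_maps_to (f := F) (fun _ _ => Finset.mem_univ _) _ ?_
  intro b _
  rcases (Finset.univ.filter (fun a => F a = b)).eq_empty_or_nonempty with h | ⟨mu, hmu⟩
  · rw [h]; simp
  rw [← Finset.card_map (Function.Embedding.subtype _)]
  refine H4.card_le_of_constituents
    (H4.isCharacter_indFun I (mu.1.2.isCharacter.restrict I)) (by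
      rw [H4.indFun_one, OneMemClass.coe_one, hone _ mu.2.1, mul_one]) _ ?_
  intro χ hχ
  obtain ⟨lam, hlam, rfl⟩ := Finset.mem_map.1 hχ
  have e1 : F lam = F mu := (Finset.mem_filter.1 hlam).2.trans (Finset.mem_filter.1 hmu).2.symm
  have e2 := H4.clifford_corr_inj N φ.2 I hI' hNI (hirr _ lam.1.2.isCharacter (hone _ lam.2.1))
    (hirr _ mu.1.2.isCharacter (hone _ mu.2.1)) (hover _ lam.1.2.isCharacter (hone _ lam.2.1))
    (hover _ mu.1.2.isCharacter (hone _ mu.2.1)) (congrArg (fun x => (x.1 : G → ℂ)) e1)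
  have e3 : (fun i : I => (lam.1 : G → ℂ) i) = fun i : I => (mu.1 : G → ℂ) i := by
    funext x
    obtain ⟨n, hn⟩ := H4.exists_ne_zero_coset_of_irr (N.subgroupOf I) ψ.2.isCharacter (by
      have := φ.2.comp_mulEquiv (Subgroup.subgroupOfEquivOfLe hNI)
      simp only [← hψ2] at this
      exact this) x
    have e4 := mul_right_cancel₀ hn (congrFun e2 (n * x))
    simp only [Subgroup.coe_mul, lam.1.2.isCharacter.map_mul_of_apply_one (hone _ lam.2.1),
      mu.1.2.isCharacter.map_mul_of_apply_one (hone _ mu.2.1),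
      hlinN _ lam.1.2.isCharacter (hone _ lam.2.1) n.1.1 n.2,
      hlinN _ mu.1.2.isCharacter (hone _ mu.2.1) n.1.1 n.2, one_mul] at e4
    exact e4
  rw [Function.Embedding.coe_subtype, H4.frobenius_recip I _ lam.1.2.isClassFunction, e3, ((mu.1.2.isCharacter.restrict I).isIrrCharacter_of_apply_one
    (hone _ mu.2.1)).classInner_self]
  exact one_ne_zero

end Cfsg.Agent.S4912
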