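import Cfsg.Statements.S4914
import Cfsg.Agent.H4.Glaub2

set_option autoImplicit false
open Cfsg

namespace Cfsg.Agent.S4914

/-- Let P and K be subgroups of a finite group G with P a p-group normalizing K, and suppose K has a normal Sylow p-subgroup Q. Let C be the subgroup of those k ∈ K whose commutator with every element of P lies in Q (so that C/Q is the fixed-point subgroup of P on K/Q). Then there is a bijection f from the P-invariant irreducible complex characters of K onto the P-invariant irreducible complex characters of C such that, for every P-invariant irreducible character χ of K, the multiplicity of f(χ) in the restriction of χ to C is a natural number congruent to 1 or to −1 modulo p, every other P-invariant irreducible character of C occurs in that restriction with multiplicity divisible by p, and the degrees of χ and f(χ) are congruent modulo p up to sign. -/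
theorem result {G : Type*} [Group G] [Finite G] (p : ℕ) [Fact p.Prime] (P K Q C : Subgroup G) (hP : IsPGroup p ↥P) (hPK : P ≤ Subgroup.normalizer (K : Set G)) (hQK : Q ≤ K) (hQn : ∀ k ∈ K, ∀ q ∈ Q, k * q * k⁻¹ ∈ Q) (hQp : ∃ a : ℕ, Nat.card ↥Q = p ^ a) (hQsyl : ¬ p ∣ Q.relIndex K) (hCK : C ≤ K) (hC : ∀ k : G, k ∈ C ↔ (k ∈ K ∧ ∀ x ∈ P, x * k * x⁻¹ * k⁻¹ ∈ Q)) : ∃ f : {χ : Cfsg.IrrCharacter ↥K // (∀ x ∈ P, ∀ k k' : ↥K, (k' : G) = x * (k : G) * x⁻¹ → (χ : ↥K → ℂ) k' = (χ : ↥K → ℂ) k)} → {ξ : Cfsg.IrrCharacter ↥C // (∀ x ∈ P, ∀ k k' : ↥C, (k' : G) = x * (k : G) * x⁻¹ → (ξ : ↥C → ℂ) k' = (ξ : ↥C → ℂ) k)}, Function.Bijective f ∧ ∀ χ, (∀ ξ : {ξ : Cfsg.IrrCharacter ↥C // (∀ x ∈ P, ∀ k k' : ↥C, (k' : G) = x * (k : G) * x⁻¹ → (ξ : ↥C → ℂ) k' = (ξ : ↥C → ℂ) k)}, ∃ m : ℕ, (Nat.card ↥C : ℂ)⁻¹ * ∑ᶠ c : ↥C, (χ.1 : ↥K → ℂ) (Subgroup.inclusion hCK c) * (starRingEnd ℂ) ((ξ.1 : ↥C → ℂ) c) = (m : ℂ) ∧ (ξ = f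 χ → ((m : ZMod p) = 1 ∨ (m : ZMod p) = -1)) ∧ (ξ ≠ f χ → p ∣ m)) ∧ ((Cfsg.charDegree ((f χ).1 : ↥C → ℂ) : ZMod p) = (Cfsg.charDegree (χ.1 : ↥K → ℂ) : ZMod p) ∨ (Cfsg.charDegree ((f χ).1 : ↥C → ℂ) : ZMod p) = -(Cfsg.charDegree (χ.1 : ↥K → ℂ) : ZMod p)) := by
  haveI := Fintype.ofFinite K
  haveI := Fintype.ofFinite C
  have h1 : ∀ x ∈ P, ∀ k ∈ K, x * k * x⁻¹ ∈ K := fun x hx k hk =>
    (Subgroup.mem_normalizer_iff.1 (hPK hx) k).1 hk
  obtain ⟨a, ha⟩ := hQp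
  haveI : (Q.subgroupOf K).Normal := ⟨fun q hq k => hQn k k.2 q hq⟩
  have h3 : ∀ x ∈ P, ∀ q ∈ Q, x * q * x⁻¹ ∈ Q := fun x hx q hq => by
    have hq' : x * q * x⁻¹ ∈ K := h1 x hx q (hQK hq)
    have e1 := Subgroup.orderOf_dvd_natCard Q hq
    have e2 : orderOf ((⟨_, hq'⟩ : K) : K ⧸ Q.subgroupOf K) ∣ p ^ a :=
      (orderOf_map_dvd (QuotientGroup.mk' (Q.subgroupOf K)) _).trans (by
        rw [← Subgroup.orderOf_coe, ← ha]
        exact ((MulAut.conj x).orderOf_eq q).symm ▸ e1)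
    have e3 : orderOf ((⟨_, hq'⟩ : K) : K ⧸ Q.subgroupOf K) = 1 :=
      Nat.eq_one_of_dvd_coprimes (((Nat.Prime.coprime_iff_not_dvd Fact.out).2 hQsyl).pow_left a) e2
        (orderOf_dvd_natCard _)
    exact (QuotientGroup.eq_one_iff (N := Q.subgroupOf K) ⟨_, hq'⟩).1 (orderOf_eq_one_iff.1 e3)
  have h2 : ∀ x ∈ P, ∀ k ∈ C, x * k * x⁻¹ ∈ C := fun x hx k hk => by
    have : x * k * x⁻¹ * k⁻¹ ∈ C := (hC _).2 ⟨hQK (((hC k).1 hk).2 x hx), fun y hy =>
      mul_mem (h3 y hy _ (((hC k).1 hk).2 x hx)) (inv_mem (((hC k).1 hk).2 x hx))⟩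
    simpa using mul_mem this hk
  letI := H4.normAct P K h1
  letI := H4.normAct P C h2
  have g : H4.GS p P (Q.subgroupOf K) (Subgroup.inclusion hCK) :=
    { pgrp := hP
      normal := inferInstance
      inv := fun x q hq => h3 x x.2 q hq
      idx := hQsyl
      inj := Subgroup.inclusion_injective hCK
      smul := fun _ _ => rfl
      range := fun k => ⟨by rintro ⟨c, rfl⟩ x; exact ((hC c).1 c.2).2 x x.2, fun e =>
        ⟨⟨k, (hC k).2 ⟨k.2, fun x hx => e ⟨x, hx⟩⟩⟩, rfl⟩⟩ }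
  simp only [finsum_eq_sum_of_fintype]
  exact g.exists_corr' (by
    rw [Nat.card_congr (Subgroup.subgroupOfEquivOfLe hQK).toEquiv, ha]
    exact ((Nat.Prime.coprime_iff_not_dvd Fact.out).2 hQsyl).pow_left a) _ _
    (fun χ => H4.aInv_normAct P K h1 _) fun χ => H4.aInv_normAct P C h2 _

end Cfsg.Agent.S4914
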