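import Cfsg.Statements.S4916
import Cfsg.Agent.H3.Height0

set_option autoImplicit false
open Cfsg

namespace Cfsg.Agent.S4916

/-- Let G be a finite group, p a prime and M a maximal ideal of the algebraic integers containing p. Then the principal character is the only irreducible character of degree prime to p in the principal p-block of G if and only if p does not divide the order of G. -/
theorem result {G : Type*} [Group G] [Finite G] (p : ℕ) [Fact p.Prime] (M : Ideal Cfsg.AlgInt) (hM : Cfsg.IsPModular p M) : (∀ χ : Cfsg.IrrCharacter G, χ ∈ Cfsg.principalBlock M G → ¬ p ∣ Cfsg.charDegree (χ : G → ℂ) → (χ : G → ℂ) = fun _ => (1 : ℂ)) ↔ ¬ p ∣ Nat.card G := by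
    have := hM.2.1; have := H5.charP_res hM
    constructor
    · intro h hd
      obtain ⟨g, hg⟩ := exists_prime_orderOf_dvd_card' p hd
      obtain ⟨χ, h1, h2, h3, -⟩ := H3.exists_mem_principalBlock_not_dvd (M := M) (p := p)
        (Fact.out : p.Prime) (g := g) (hg ▸ dvd_rfl)
      exact h2 (Subtype.ext (h χ h1 h3))
    · intro h χ hχ _
      rw [← H3.eq_of_sameBlock_of_not_dvd (M := M) h (θ := H5.irrOne G) hχ]
      rfl

end Cfsg.Agent.S4916
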