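import Cfsg.Statements.S4923
import Cfsg.Agent.H4.Taussky
import Cfsg.Agent.H1.Frattini
import Cfsg.Agent.H3.Galois

set_option autoImplicit false
open Cfsg

namespace Cfsg.Agent.S4923

theorem field_iff {G : Type*} [Group G] [Finite G] {ζ ε : ℂ} (hζ : ζ ^ Nat.card G = 1)
    (hε : ε = 1 ∨ ε = -1) (g : G) :
    IntermediateField.adjoin ℚ {z : ℂ | ∃ χ : IrrCharacter G, (χ : G → ℂ) g = z} =
      IntermediateField.adjoin ℚ ({ζ + ε * ζ⁻¹} : Set ℂ) ↔
    ∀ m : ℕ, m.Coprime (Nat.card G) → (IsConj g (g ^ m) ↔ ζ ^ m = ζ ∨ ζ ^ (m + 1) = ε) := by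
  have hζ0 : ζ ≠ 0 := by
    rintro rfl
    rw [zero_pow Nat.card_pos.ne'] at hζ
    exact zero_ne_one hζ
  have key : ∀ (τ : ℂ ≃+* ℂ) (m : ℕ), (∀ z : ℂ, z ^ Nat.card G = 1 → τ z = z ^ m) →
      (((∀ s ∈ {z : ℂ | ∃ χ : IrrCharacter G, (χ : G → ℂ) g = z}, τ s = s) ↔
        ∀ s ∈ ({ζ + ε * ζ⁻¹} : Set ℂ), τ s = s) ↔
      (IsConj g (g ^ m) ↔ ζ ^ m = ζ ∨ ζ ^ (m + 1) = ε)) := by
    intro τ m h
    refine iff_congr ?_ ?_
    · rw [H3.isConj_iff_forall_irr]
      constructor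
      · intro h1 χ
        rw [← χ.2.isCharacter.map_apply_eq_pow τ.toRingHom h pow_card_eq_one']
        exact (h1 _ ⟨χ, rfl⟩).symm
      · rintro h1 _ ⟨χ, rfl⟩
        exact (χ.2.isCharacter.map_apply_eq_pow τ.toRingHom h pow_card_eq_one').trans (h1 χ).symm
    · have h2 : τ ε = ε := by rcases hε with rfl | rfl <;> simp
      simp only [Set.mem_singleton_iff, forall_eq, map_add, map_mul, map_inv₀, h ζ hζ, h2]
      have h3 : ζ ^ m ≠ 0 := pow_ne_zero _ hζ0
      rw [← sub_eq_zero, ← sub_eq_zero (a := ζ ^ m), ← sub_eq_zero (a := ζ ^ (m + 1)),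
        ← mul_eq_zero, ← mul_eq_zero_iff_right (mul_ne_zero h3 hζ0)]
      refine Eq.congr_left ?_
      field_simp
      ring
  rw [H4.adjoin_eq_adjoin_iff]
  · constructor
    · intro h m hm
      obtain ⟨τ, hτ⟩ := H3.exists_ringEquiv_pow Nat.card_pos hm
      exact (key τ m hτ).1 (h τ)
    · intro h τ
      obtain ⟨m, hm, hτ⟩ := H3.exists_pow_of_ringHom (Nat.card_pos (α := G)) τ.toRingHom
      exact (key τ m hτ).2 (h m hm)
  · rintro _ ⟨χ, rfl⟩
    exact χ.2.isCharacter.isIntegral g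
  · rintro _ rfl
    refine (H3.isIntegral_of_pow_eq_one Nat.card_pos hζ).add (IsIntegral.mul ?_
      (H3.isIntegral_of_pow_eq_one (Nat.card_pos (α := G)) (by rw [inv_pow, hζ, inv_one])))
    rcases hε with rfl | rfl
    · exact isIntegral_one
    · exact isIntegral_one.neg

theorem isPGroup_range {G : Type*} [Group G] [Finite G] {g : G} {j : ℕ} (hg : orderOf g = 2 ^ j) :
    IsPGroup 2 (Subgroup.zpowers g).normalizerMonoidHom.range := by
  refine IsPGroup.to_subgroup ?_ _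
  rcases j with _ | j
  · exact IsPGroup.of_card (n := 0) (by
      rw [IsCyclic.card_mulAut, Nat.card_zpowers, hg]; simp)
  · exact IsPGroup.of_card (n := j) (by
      rw [IsCyclic.card_mulAut, Nat.card_zpowers, hg, Nat.totient_prime_pow_succ Nat.prime_two]
      simp)

theorem exists_sylow_conj {G : Type*} [Group G] [Finite G] {g : G} {j : ℕ}
    (hg : orderOf g = 2 ^ j) (Q : Sylow 2 (Subgroup.normalizer (Subgroup.zpowers g : Set G)))
    {x : G} {m : ℕ} (hx : x * g * x⁻¹ = g ^ m) :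
    ∃ y ∈ Q, (y : G) * g * (y : G)⁻¹ = g ^ m := by
  have hxN : x ∈ Subgroup.normalizer (Subgroup.zpowers g : Set G) := by
    refine H1.mem_normalizer_of_conj_mem ?_
    rintro _ ⟨i, rfl⟩
    rw [← conj_zpow, hx]
    exact zpow_mem (pow_mem (Subgroup.mem_zpowers g) m) i
  have h := H1.sylow_map_eq_top (MonoidHom.rangeRestrict_surjective _) (isPGroup_range hg) Q
  obtain ⟨y, hy, e⟩ := (h ▸ Subgroup.mem_top _ : MonoidHom.rangeRestrict _ ⟨x, hxN⟩ ∈ _)
  refine ⟨y, hy, ?_⟩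
  rw [← hx]
  exact congrArg (fun f : (Subgroup.zpowers g).normalizerMonoidHom.range =>
    (f.1 ⟨g, Subgroup.mem_zpowers g⟩ : G)) e

theorem even_index {G : Type*} [Group G] [Finite G] {g : G} {j : ℕ} (hg : orderOf g = 2 ^ j)
    {t : G} (ht : t ∈ Subgroup.normalizer (Subgroup.zpowers g : Set G)) (h : t * g * t⁻¹ ≠ g) :
    2 ∣ (Subgroup.centralizer ({g} : Set G)).index := by
  obtain ⟨i, hi⟩ := IsPGroup.iff_card.1 (isPGroup_range hg)
  have hi0 : i ≠ 0 := by
    rintro rfl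
    rw [pow_zero, Subgroup.card_eq_one] at hi
    have : (Subgroup.zpowers g).normalizerMonoidHom ⟨t, ht⟩ = 1 := by
      rw [← Subgroup.mem_bot, ← hi]; exact ⟨_, rfl⟩
    exact h (congrArg (fun f : MulAut (Subgroup.zpowers g) =>
      (f ⟨g, Subgroup.mem_zpowers g⟩ : G)) this)
  rw [← Subgroup.index_ker, Subgroup.normalizerMonoidHom_ker] at hi
  have h2 : Subgroup.centralizer ({g} : Set G) =
      Subgroup.centralizer (Subgroup.zpowers g : Set G) := by
    rw [Subgroup.zpowers_eq_closure, Subgroup.centralizer_closure]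
  rw [h2]
  exact (dvd_pow_self 2 hi0).trans (hi ▸ Subgroup.relIndex_dvd_index_of_le
    (Subgroup.centralizer_le_normalizer _))

/-- Let G be a finite group with Sylow 2-subgroup P of order 2^n ≥ 8, and let ζ be a primitive 2^(n−1)-th root of unity in ℂ. Then the commutator subgroup of P has index 4 in P if and only if there is an element g of P whose conjugacy class in G has even size and such that the field generated over ℚ by the values at g of all irreducible complex characters of G equals ℚ(ζ + ζ⁻¹) or ℚ(ζ − ζ⁻¹). -/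
theorem result {G : Type*} [Group G] [Finite G] (P : Sylow 2 G) (n : ℕ) (hn : 3 ≤ n) (hP : Nat.card P = 2 ^ n) (ζ : ℂ) (hζ : IsPrimitiveRoot ζ (2 ^ (n - 1))) :
    (commutator ↥P).index = 4 ↔
      ∃ g : G, g ∈ (P : Subgroup G) ∧ 2 ∣ (Subgroup.centralizer ({g} : Set G)).index ∧
        (IntermediateField.adjoin ℚ {z : ℂ | ∃ χ : Cfsg.IrrCharacter G, (χ : G → ℂ) g = z} = IntermediateField.adjoin ℚ ({ζ + ζ⁻¹} : Set ℂ) ∨
          IntermediateField.adjoin ℚ {z : ℂ | ∃ χ : Cfsg.IrrCharacter G, (χ : G → ℂ) g = z} = IntermediateField.adjoin ℚ ({ζ - ζ⁻¹} : Set ℂ)) := by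
  obtain ⟨k, rfl⟩ : ∃ k, n = k + 3 := ⟨n - 3, by omega⟩
  rw [show k + 3 - 1 = k + 2 by omega] at hζ
  have hdvd : 2 ^ (k + 3) ∣ Nat.card G := hP ▸ (P : Subgroup G).card_subgroup_dvd_card
  have hζG : ζ ^ Nat.card G = 1 :=
    (hζ.pow_eq_one_iff_dvd _).2 ((pow_dvd_pow 2 (by omega)).trans hdvd)
  have hζ0 : ζ ≠ 0 := hζ.ne_zero (by positivity)
  have hζh : ζ ^ 2 ^ (k + 1) = -1 :=
    (hζ.pow (by positivity) (pow_succ 2 (k + 1))).eq_neg_one_of_two_right
  have hζmod : ∀ i j : ℕ, ζ ^ i = ζ ^ j ↔ i ≡ j [MOD 2 ^ (k + 2)] := fun i j => by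
    rw [hζ.eq_orderOf, ← Units.val_mk0 hζ0, orderOf_units, ← pow_eq_pow_iff_modEq,
      ← Units.val_pow_eq_pow_val, ← Units.val_pow_eq_pow_val, Units.val_inj]
  have e1 : ζ + ζ⁻¹ = ζ + 1 * ζ⁻¹ := by ring
  have e2 : ζ - ζ⁻¹ = ζ + (-1) * ζ⁻¹ := by ring
  rw [e1, e2]
  simp only [field_iff hζG (Or.inl rfl), field_iff hζG (Or.inr rfl)]
  have hodd : ∀ g : G, (P : Subgroup G) ≤ Subgroup.centralizer {g} →
      ¬ 2 ∣ (Subgroup.centralizer ({g} : Set G)).index := fun g h h2 =>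
    P.not_dvd_index (h2.trans (Subgroup.index_dvd_of_le h))
  constructor
  · intro h
    obtain ⟨a, t, ha, ht, h1, h2⟩ := H4.taussky hP h
    have hA := H4.index_zpowers_eq_two hP ha
    have ha' : orderOf (a : G) = 2 ^ (k + 2) := by rw [Subgroup.orderOf_coe, ha]
    have hPN : (P : Subgroup G) ≤ Subgroup.normalizer (Subgroup.zpowers (a : G) : Set G) := by
      intro y hy
      refine H1.mem_normalizer_of_conj_mem ?_
      rintro _ ⟨i, rfl⟩
      obtain ⟨j, hj⟩ := (Subgroup.normal_of_index_eq_two hA).conj_mem _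
        (zpow_mem (Subgroup.mem_zpowers a) i) ⟨y, hy⟩
      exact ⟨j, by simpa using congrArg Subtype.val hj⟩
    have hconj : ∀ m : ℕ, IsConj (a : G) ((a : G) ^ m) ↔
        a ^ m = a ∨ a ^ m = t * a * t⁻¹ := by
      intro m
      constructor
      · intro hc
        obtain ⟨x, hx⟩ := isConj_iff.1 hc
        obtain ⟨y, hy, e⟩ := exists_sylow_conj ha' (P.subtype hPN) hx
        have e' : a ^ m = ⟨y, hy⟩ * a * (⟨y, hy⟩ : P)⁻¹ := Subtype.ext e.symm
        rw [e']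
        exact H4.conj_cases_of_index_two hA ht _
      · rintro (e | e)
        · rw [← Subgroup.coe_pow, e]
        · exact isConj_iff.2 ⟨t, (congrArg Subtype.val e).symm⟩
    have hpow : ∀ i j : ℕ, a ^ i = a ^ j ↔ ζ ^ i = ζ ^ j := fun i j => by
      rw [pow_eq_pow_iff_modEq, ha, hζmod]
    refine ⟨a, a.2, even_index ha' (hPN t.2) (fun e => h2 (Subtype.ext e)), ?_⟩
    rcases h1 with h1 | h1
    · left
      intro m _
      rw [hconj, h1, eq_inv_iff_mul_eq_one, ← pow_succ, ← pow_zero a, hpow, pow_zero]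
      have := hpow m 1
      rw [pow_one, pow_one] at this
      rw [this]
    · right
      intro m _
      rw [hconj, h1, eq_inv_mul_iff_mul_eq, ← pow_succ', hpow, hζh]
      have := hpow m 1
      rw [pow_one, pow_one] at this
      rw [this]
  · rintro ⟨g, hg, h1, h2⟩
    rcases Nat.eq_zero_or_pos k with rfl | hk
    · refine H4.index_commutator_eq_four_of_card_eight hP fun h => hodd g (fun x hx => ?_) h1
      exact Subgroup.mem_centralizer_singleton_iff.2 (congrArg Subtype.val (h ⟨x, hx⟩ ⟨g, hg⟩))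
    obtain ⟨ε, hε, h2⟩ : ∃ ε : ℂ, (ε = 1 ∨ ε = -1) ∧ ∀ m : ℕ, m.Coprime (Nat.card G) →
        (IsConj g (g ^ m) ↔ ζ ^ m = ζ ∨ ζ ^ (m + 1) = ε) :=
      h2.elim (fun h => ⟨1, Or.inl rfl, h⟩) (fun h => ⟨-1, Or.inr rfl, h⟩)
    have hε2 : ε ^ 2 = 1 := by rcases hε with rfl | rfl <;> norm_num
    have hcrt : ∀ r : ℕ, Odd r → ∃ m : ℕ, m.Coprime (Nat.card G) ∧ m ≡ r [MOD 2 ^ (k + 2)] := by
      intro r hr
      obtain ⟨m, hm1, hm2⟩ := Nat.chineseRemainder (n := 2 ^ (k + 2))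
        (m := ordCompl[2] (Nat.card G))
        ((Nat.coprime_ordCompl Nat.prime_two Nat.card_pos.ne').pow_left _) r 1
      refine ⟨m, ?_, hm1⟩
      rw [← Nat.ordProj_mul_ordCompl_eq_self (Nat.card G) 2]
      refine Nat.Coprime.mul_right (Nat.Coprime.pow_right _ ?_) ?_
      · rw [Nat.coprime_two_right, Nat.odd_iff, hm1.of_dvd (dvd_pow_self 2 (by omega))]
        exact Nat.odd_iff.1 hr
      · exact Nat.coprime_of_mul_modEq_one 1 (by simpa using hm2)
    have hζm : ∀ {m r : ℕ}, m ≡ r [MOD 2 ^ (k + 2)] → ζ ^ m = ζ ^ r := fun h =>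
      (hζmod _ _).2 h
    obtain ⟨j, hj, hj2⟩ := (Nat.dvd_prime_pow Nat.prime_two).1
      (hP ▸ orderOf_dvd_natCard (⟨g, hg⟩ : P))
    have hj3 : orderOf g = 2 ^ j := by rw [← hj2, ← Subgroup.orderOf_coe]
    have hj4 : j ≠ k + 3 := by
      rintro rfl
      refine hodd g (fun x hx => ?_) h1
      have : IsCyclic P := isCyclic_of_orderOf_eq_card _ (by rw [hj2, hP])
      exact Subgroup.mem_centralizer_singleton_iff.2 (congrArg Subtype.val
        (IsCyclic.isMulCommutative.is_comm.comm (⟨x, hx⟩ : P) ⟨g, hg⟩))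
    have hj5 : ¬ j ≤ k + 1 := by
      intro hj5
      obtain ⟨m, hm1, hm2⟩ := hcrt (2 ^ (k + 1) + 1) (Even.add_one (by simp [Nat.even_pow]))
      have e : g ^ m = g := by
        rw [(pow_eq_pow_iff_modEq.2 (hm2.of_dvd (hj3 ▸ pow_dvd_pow 2 (by omega))) : g ^ m = _),
          pow_succ, orderOf_dvd_iff_pow_eq_one.1 (hj3 ▸ pow_dvd_pow 2 hj5), one_mul]
      rcases (h2 m hm1).1 (by rw [e]) with h | h
      · rw [hζm hm2, pow_succ, hζh, mul_eq_right₀ hζ0] at h
        norm_num at h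
      · rw [pow_succ, hζm hm2, pow_succ, hζh] at h
        have h4 : ζ ^ 4 = 1 := by rw [← hε2, ← h]; ring
        have := Nat.le_of_dvd (by norm_num) ((hζ.pow_eq_one_iff_dvd _).1 h4)
        have h5 : 2 ^ 3 ≤ 2 ^ (k + 2) := Nat.pow_le_pow_right two_pos (by omega)
        omega
    obtain rfl : j = k + 2 := by omega
    obtain ⟨m, hm1, hm2, hm3⟩ : ∃ m : ℕ, m.Coprime (Nat.card G) ∧ ζ ^ (m + 1) = ε ∧
        m % 4 = 3 := by
      obtain ⟨k, rfl⟩ : ∃ k', k = k' + 1 := ⟨k - 1, by omega⟩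
      have h4 : 4 ∣ 2 ^ (k + 1 + 2) := ⟨2 ^ (k + 1), by ring⟩
      have hp := Nat.one_le_two_pow (n := k)
      rcases hε with rfl | rfl
      · obtain ⟨m, hm1, hm2⟩ := hcrt (8 * 2 ^ k - 1) (by rw [Nat.odd_iff]; omega)
        refine ⟨m, hm1, ?_, by rw [hm2.of_dvd h4]; omega⟩
        rw [hζm (hm2.add_right 1), show 8 * 2 ^ k - 1 + 1 = 2 ^ (k + 1 + 2) by
          rw [pow_add, pow_add]; omega, hζ.pow_eq_one]
      · obtain ⟨m, hm1, hm2⟩ := hcrt (4 * 2 ^ k - 1) (by rw [Nat.odd_iff]; omega)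
        refine ⟨m, hm1, ?_, by rw [hm2.of_dvd h4]; omega⟩
        rw [hζm (hm2.add_right 1), show 4 * 2 ^ k - 1 + 1 = 2 ^ (k + 1 + 1) by
          rw [pow_add, pow_add]; omega, hζh]
    obtain ⟨x, hx⟩ := isConj_iff.1 ((h2 m hm1).2 (Or.inr hm2))
    have hgN : g ∈ Subgroup.normalizer (Subgroup.zpowers g : Set G) :=
      Subgroup.le_normalizer (Subgroup.mem_zpowers g)
    obtain ⟨Q, hQ⟩ := (IsPGroup.of_card (G := Subgroup.zpowers (⟨g, hgN⟩ :
      Subgroup.normalizer (Subgroup.zpowers g : Set G))) (p := 2) (n := k + 2) (by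
        rw [Nat.card_zpowers, ← Subgroup.orderOf_coe, hj3])).exists_le_sylow
    obtain ⟨y, hy, e⟩ := exists_sylow_conj hj3 Q hx
    obtain ⟨R, hR⟩ := (Q.isPGroup'.map (Subgroup.subtype _)).exists_le_sylow
    have hgR : g ∈ R := hR ⟨_, hQ (Subgroup.mem_zpowers _), rfl⟩
    have hyR : (y : G) ∈ R := hR ⟨_, hy, rfl⟩
    have e3 := H4.index_commutator_eq_four_of_conj (R := R)
      (by rw [← hP]; exact Nat.card_congr (Sylow.equiv R P).toEquiv) (a := ⟨g, hgR⟩)
      (t := ⟨y, hyR⟩) (by rw [← Subgroup.orderOf_coe, hj3]) hm3 (Subtype.ext e)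
    have e4 : (commutator (P : Subgroup G)).index = (commutator (R : Subgroup G)).index := by
      rw [← Subgroup.index_map_equiv _ (Sylow.equiv P R), map_commutator_eq,
        MonoidHom.range_eq_top.2 (Sylow.equiv P R).surjective, commutator_def]
    exact e4.trans e3

end Cfsg.Agent.S4923
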