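import Cfsg.Statements.S4931
import Cfsg.Agent.H4.ExtSyl

set_option autoImplicit false
open Cfsg

namespace Cfsg.Agent.S4931

/-- Let G be a finite group, p a prime and P a Sylow p-subgroup of G with normalizer N. Then every irreducible complex character of N of degree not divisible by p is the restriction of an irreducible character of G if and only if there is a normal subgroup K of G with KN = G and K ∩ N = 1. -/
theorem result {G : Type*} [Group G] [Finite G] (p : ℕ) [Fact p.Prime] (P : Sylow p G) :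
    (∀ θ : Cfsg.IrrCharacter ↥(Subgroup.normalizer ((P : Subgroup G) : Set G)), ¬ p ∣ Cfsg.charDegree (θ : ↥(Subgroup.normalizer ((P : Subgroup G) : Set G)) → ℂ) →
        ∃ χ : Cfsg.IrrCharacter G, ∀ x : ↥(Subgroup.normalizer ((P : Subgroup G) : Set G)), (χ : G → ℂ) x = (θ : ↥(Subgroup.normalizer ((P : Subgroup G) : Set G)) → ℂ) x) ↔
      ∃ K : Subgroup G, K.Normal ∧ K ⊔ Subgroup.normalizer ((P : Subgroup G) : Set G) = ⊤ ∧ K ⊓ Subgroup.normalizer ((P : Subgroup G) : Set G) = ⊥ := by
  refine ⟨Cfsg.Agent.H4.exists_complement_of_extend P, ?_⟩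
  rintro ⟨K, hK, h1, h2⟩ θ -
  have hc : K.IsComplement' (Subgroup.normalizer ((P : Subgroup G) : Set G)) :=
    Subgroup.isComplement'_of_disjoint_and_mul_eq_univ (disjoint_iff.2 h2)
      (by rw [← Subgroup.normal_mul, h1, Subgroup.coe_top])
  let f := hc.symm.QuotientMulEquiv.toMonoidHom.comp (QuotientGroup.mk' K)
  have hf : ∀ x : Subgroup.normalizer ((P : Subgroup G) : Set G), f x = x := fun x =>
    hc.symm.QuotientMulEquiv.symm.injective (by simp [f]; rfl)
  exact ⟨⟨_, θ.2.comp_of_surjective f fun x => ⟨x, hf x⟩⟩, fun x => congrArg θ.1 (hf x)⟩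

end Cfsg.Agent.S4931
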