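import Cfsg.Statements.S4937
import Cfsg.Agent.H3.Dade

set_option autoImplicit false
open Cfsg

namespace Cfsg.Agent.S4937

/-- Let G be a finite group, p a prime, M a maximal ideal of the algebraic integers containing p, N a normal subgroup of G and P a Sylow p-subgroup of N such that G = N·C_G(P). Let θ be an irreducible character in the principal p-block of N that is the restriction of some irreducible character of G. Then θ is the restriction of an irreducible character χ of G lying in the principal p-block of G such that, for every subgroup J of G containing N, the restriction of χ to J is an irreducible character of J lying in the principal p-block of J. -/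
theorem result {G : Type*} [Group G] [Finite G] (p : ℕ) [Fact p.Prime] (M : Ideal Cfsg.AlgInt) (hM : Cfsg.IsPModular p M) (N : Subgroup G) [N.Normal] (P : Sylow p ↥N)
    (hcov : N ⊔ Subgroup.centralizer (((P : Subgroup ↥N).map N.subtype : Subgroup G) : Set G) = ⊤)
    (θ : Cfsg.IrrCharacter ↥N) (hθ : θ ∈ Cfsg.principalBlock M ↥N)
    (hext : ∃ ψ : Cfsg.IrrCharacter G, ∀ x : ↥N, (ψ : G → ℂ) x = (θ : ↥N → ℂ) x) :
    ∃ χ : Cfsg.IrrCharacter G, χ ∈ Cfsg.principalBlock M G ∧ (∀ x : ↥N, (χ : G → ℂ) x = (θ : ↥N → ℂ) x) ∧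
      ∀ J : Subgroup G, N ≤ J → ∃ ξ : Cfsg.IrrCharacter ↥J, ξ ∈ Cfsg.principalBlock M ↥J ∧ ∀ y : ↥J, (ξ : ↥J → ℂ) y = (χ : G → ℂ) y := by
    have := hM.2.1; have := H5.charP_res hM
    obtain ⟨ψ, hψ⟩ := hext
    obtain ⟨χ, h1, h2⟩ := H3.exists_extension_principal (p := p) N (fun g => by
      obtain ⟨n, hn, c, hc, rfl⟩ := Subgroup.mem_sup_of_normal_left.mp (hcov.ge (Subgroup.mem_top g))
      refine ⟨c, by simp [(QuotientGroup.eq_one_iff n).mpr hn], ?_⟩
      exact H3.not_dvd_index_of_sylow_le P fun x hx => H5.mem_cz.mpr (hc x ⟨x, hx, rfl⟩)) hθ hψ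
    have h3 : IsIrrCharacter N fun n : N => (χ : G → ℂ) n := funext h1 ▸ θ.2
    refine ⟨χ, H3.mem_principalBlock_of_relIndex N h3 h2, h1, fun J hJ => ?_⟩
    have h4 : IsIrrCharacter (N.subgroupOf J) fun n : N.subgroupOf J => (χ : G → ℂ) (n : J) :=
      h3.comp_mulEquiv (Subgroup.subgroupOfEquivOfLe hJ)
    refine ⟨⟨fun y : J => (χ : G → ℂ) y, H3.isIrr_of_isIrr_comp (N.subgroupOf J).subtype
      (χ.2.isCharacter.restrict J) h4⟩, H3.mem_principalBlock_of_relIndex (N.subgroupOf J) h4
        fun g => ?_, fun _ => rfl⟩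
    rw [← H3.comap_cz_of_injective J.subtype J.subtype_injective g, Subgroup.comap_subtype,
      Subgroup.relIndex_subgroupOf hJ]
    exact h2 g

end Cfsg.Agent.S4937
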