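import Cfsg.Statements.S4940
import Cfsg.Agent.FS.Main

set_option autoImplicit false
open Cfsg

namespace Cfsg.Agent.S4940

open Matrix in
theorem result (F : Type*) [Field F] [Fintype F] [CharP F 2] (n : ℕ) (χ : Cfsg.IrrCharacter ↥(Matrix.symplecticGroup (Fin n) F)) :
    ∑ᶠ g : ↥(Matrix.symplecticGroup (Fin n) F), (χ : ↥(Matrix.symplecticGroup (Fin n) F) → ℂ) (g * g) = (Nat.card ↥(Matrix.symplecticGroup (Fin n) F) : ℂ) := by
  have hB : ∀ x y, toBilin' (J (Fin n) F) x y =
      ∑ i, x (.inr i) * y (.inl i) - ∑ i, x (.inl i) * y (.inr i) := fun x y => by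
    simp [toBilin'_apply', J, fromBlocks_mulVec, dotProduct, Fintype.sum_sum_type, neg_mulVec]; ring
  refine FS.fs_mat (toBilin' (J (Fin n) F)) (fun x y => ?_) (fun x => ?_) (fun x h => ?_) 0
    (Or.inl fun _ => rfl) (by simp) (symplecticGroup (Fin n) F).subtype Subtype.val_injective
    (fun A _ => ⟨?_, fun h => ⟨⟨A, SymplecticGroup.mem_iff'.2 (toBilin'.injective
      (LinearMap.ext₂ fun x y => ?_))⟩, rfl⟩⟩) χ.2
  · simp [hB, CharTwo.sub_eq_add, mul_comm, add_comm]
  · simp [hB, mul_comm]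
  · ext (i | i)
    · simpa [hB, Pi.single_apply] using h (Pi.single (.inr i) 1)
    · simpa [hB, Pi.single_apply] using h (Pi.single (.inl i) 1)
  · rintro ⟨y, rfl⟩
    refine ⟨fun x z => ?_, by simp⟩
    conv_rhs => rw [← SymplecticGroup.mem_iff'.1 y.2]
    simp only [toBilin'_apply', ← mulVec_mulVec, dotProduct_mulVec x, vecMul_transpose]; rfl
  · rw [← h.1]
    simp only [toBilin'_apply', ← mulVec_mulVec, dotProduct_mulVec x, vecMul_transpose]

end Cfsg.Agent.S4940
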