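import Cfsg.Statements.S4969
import Cfsg.Agent.H3.Orth

set_option autoImplicit false
open Cfsg

namespace Cfsg.Agent.S4969

/-- Let G be a finite group with k conjugacy classes, g ∈ G, and N > 0. Then the sum over the irreducible complex characters χ of G with χ(1) ≥ N of |χ(g)|/χ(1) is at most √(k · #C_G(g)) / N. -/
theorem result {G : Type*} [Group G] [Finite G] (g : G) (N : ℝ) (hN : 0 < N) :
    ∑ᶠ χ : Cfsg.IrrCharacter G, (if N ≤ ‖(χ : G → ℂ) 1‖ then ‖(χ : G → ℂ) g‖ / ‖(χ : G → ℂ) 1‖ else 0) ≤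
      Real.sqrt ((Nat.card (ConjClasses G) : ℝ) * (Nat.card ↥(Subgroup.centralizer ({g} : Set G)) : ℝ)) / N := by
  classical
  rw [finsum_eq_sum_of_fintype, le_div_iff₀ hN, Finset.sum_mul]
  calc _ ≤ ∑ χ : Cfsg.IrrCharacter G, 1 * ‖(χ : G → ℂ) g‖ := by
        refine Finset.sum_le_sum fun χ _ => ?_
        split_ifs with h
        · have h1 : 0 < ‖(χ : G → ℂ) 1‖ := hN.trans_le h
          rw [one_mul, div_mul_eq_mul_div, div_le_iff₀ h1]
          exact mul_le_mul_of_nonneg_left h (norm_nonneg _)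
        · simp
    _ ≤ _ := by
        apply Real.le_sqrt_of_sq_le
        refine (Finset.sum_mul_sq_le_sq_mul_sq _ _ _).trans (le_of_eq ?_)
        rw [H3.sum_irr_norm_sq, ← H3.card_irr_eq_card_conjClasses]
        simp

end Cfsg.Agent.S4969
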