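import Cfsg.Statements.S4984
import Cfsg.Agent.Dg.Z3

set_option autoImplicit false
open Cfsg

namespace Cfsg.Agent.S4984

open Cfsg.Agent.Dg in
/-- Let G be a finite simple symplectic group PSp_{2m}(q) (m ≥ 2, excluding PSp₄(2)) or a finite simple orthogonal group PΩ_{2m+1}(q) (m ≥ 3, q odd), PΩ⁺_{2m}(q) or PΩ⁻_{2m}(q) (m ≥ 4). Then the character degree graph of G is complete: for any two distinct primes each dividing some irreducible complex character degree of G, their product divides some irreducible character degree of G. -/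
theorem result {G : Type*} [Group G] [Finite G] (h : Cfsg.IsPSp G ∨ Cfsg.IsPOmegaOdd G ∨ Cfsg.IsPOmegaPlus G ∨ Cfsg.IsPOmegaMinus G) (r s : ℕ) (hr : r ∈ Cfsg.degreePrimes G) (hs : s ∈ Cfsg.degreePrimes G) (hrs : r ≠ s) : (Cfsg.degreeGraph G).Adj r s := by
  rcases h with h | h | h | h
  · obtain ⟨F, _, _, V, _, _, _, Q, B, n, T, a, b, ⟨e⟩⟩ := model_sp h
    exact adj_of e (main_C T a b) (fun r hr l => pr_of T (by omega) (by omega) hr
      (l.trans (Subgroup.card_quotient_dvd_card _))) hr hs hrs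
  · obtain ⟨F, _, _, V, _, _, _, Q, B, n, T, a, b, ⟨e⟩⟩ := model_odd h
    exact adj_of e (main_B T a b) (fun r hr l => pr_of T (by omega) (by omega) hr (l.trans card_PO_dvd)) hr hs hrs
  · obtain ⟨F, _, _, V, _, _, _, Q, B, n, T, a, ⟨e⟩⟩ := model_plus h
    exact adj_of e (main_D T a) (fun r hr l => pr_of T (by omega) (by omega) hr (l.trans card_PO_dvd)) hr hs hrs
  · obtain ⟨F, _, _, V, _, _, _, Q, B, n, T, a, ⟨e⟩⟩ := model_minus h
    exact adj_of e (main_E T a) (fun r hr l => pr_of T le_rfl (fun _ => rfl) hr (l.trans card_PO_dvd)) hr hs hrs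

end Cfsg.Agent.S4984
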