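import Cfsg.Statements.S4989
import Cfsg.Agent.H4.AmGm

set_option autoImplicit false
open Cfsg

namespace Cfsg.Agent.S4989

/-- Let H be a subgroup of the finite group G and χ an irreducible complex character of G. Then the inner product of the restriction of χ to H with itself, (1/#H)·Σ_{h ∈ H} |χ(h)|², is at most 1 + #(Z ∖ H)/#H, where Z is the set of zeros of χ in G. -/
theorem result {G : Type*} [Group G] [Finite G] (H : Subgroup G) (χ : Cfsg.IrrCharacter G) : (Nat.card ↥H : ℝ)⁻¹ * ∑ᶠ h : ↥H, ‖(χ : G → ℂ) h‖ ^ 2 ≤ 1 + (Set.ncard ({x : G | (χ : G → ℂ) x = 0} \ (H : Set G)) : ℝ) / (Nat.card ↥H : ℝ) := by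
  classical
  have := Fintype.ofFinite G
  have := Fintype.ofFinite H
  rw [finsum_eq_sum_of_fintype]
  have hH : (0 : ℝ) < Nat.card H := by exact_mod_cast Nat.card_pos
  set S : Finset G := Finset.univ.filter (fun g => g ∉ H ∧ (χ : G → ℂ) g ≠ 0) with hS
  set Z : Finset G := Finset.univ.filter (fun g => g ∉ H ∧ (χ : G → ℂ) g = 0) with hZ
  set T : Finset G := Finset.univ.filter (fun g => g ∈ H) with hT
  have h1 := H4.card_le_sum_norm_sq χ.2.isGeneralizedCharacter S (fun m hm g hg => by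
    simp only [hS, Finset.mem_filter, Finset.mem_univ, true_and] at hg ⊢
    rw [H4.pow_mem_iff_of_coprime H hm, Ne,
      H4.apply_pow_eq_zero_iff χ.2.isGeneralizedCharacter hm]
    exact hg) (fun g hg => (Finset.mem_filter.1 hg).2.2)
  have h2 : Set.ncard ({x : G | (χ : G → ℂ) x = 0} \ (H : Set G)) = Z.card := by
    rw [← Set.ncard_coe_finset]
    congr 1
    ext x
    simp [hZ, and_comm]
  have h3 : ∑ g : G, ‖(χ : G → ℂ) g‖ ^ 2 = Nat.card G := by
    have h2 := χ.2.classInner_self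
    rw [H3.classInner_self_eq] at h2
    have h3 : (Nat.card G : ℝ)⁻¹ * ∑ g : G, ‖(χ : G → ℂ) g‖ ^ 2 = 1 := by exact_mod_cast h2
    have h4 : (Nat.card G : ℝ) ≠ 0 := by exact_mod_cast Nat.card_pos.ne'
    field_simp at h3
    exact h3
  have h4 : ∀ f : G → ℝ, ∑ g, f g = ∑ h : H, f h + (∑ g ∈ S, f g + ∑ g ∈ Z, f g) := by
    intro f
    rw [← Finset.sum_subtype (p := fun g => g ∈ H) T (by simp [hT]), hS, hZ, hT,
      Finset.sum_filter, Finset.sum_filter, Finset.sum_filter, ← Finset.sum_add_distrib,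
      ← Finset.sum_add_distrib]
    refine Finset.sum_congr rfl fun g _ => ?_
    by_cases h1 : g ∈ H <;> by_cases h2 : (χ : G → ℂ) g = 0 <;> simp [h1, h2]
  have h5 := h4 (fun _ => 1)
  have h6 := h4 (fun g => ‖(χ : G → ℂ) g‖ ^ 2)
  simp only [Finset.sum_const, Finset.card_univ, nsmul_eq_mul, mul_one,
    ← Nat.card_eq_fintype_card] at h5
  have h7 : 0 ≤ ∑ g ∈ Z, ‖(χ : G → ℂ) g‖ ^ 2 := Finset.sum_nonneg fun _ _ => by positivity
  rw [h2, inv_mul_le_iff₀ hH, mul_add, mul_div_cancel₀ _ hH.ne']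
  linarith

end Cfsg.Agent.S4989
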