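import Cfsg.Statements.S4990
import Cfsg.Agent.Kr.Z
import Cfsg.Agent.Kr.E1

set_option autoImplicit false
open Cfsg

namespace Cfsg.Agent.S4990

/-- Let G be a finite solvable group, p a prime, M a maximal ideal of the algebraic integers containing p, and B a p-block of G of positive defect d. Then B contains at most 3^{d−1}·p^d irreducible complex characters. -/
theorem result {G : Type*} [Group G] [Finite G] (hsolv : Group.IsSolvable G) (p : ℕ) [Fact p.Prime] (M : Ideal Cfsg.AlgInt) (hM : Cfsg.IsPModular p M) (B : Set (Cfsg.IrrCharacter G)) (hB : Cfsg.IsPBlock M B) (hd : 0 < Cfsg.blockDefect p B) : Set.ncard B ≤ 3 ^ (Cfsg.blockDefect p B - 1) * p ^ Cfsg.blockDefect p B := by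
  obtain ⟨X, _, _, _, h1, h2, h3⟩ := Kr.fong_red p hM hB
  haveI : Nontrivial X := not_subsingleton_iff_nontrivial.1 fun _ => by simp [← h2] at hd
  have h4 := Kr.cp_bound _ X rfl h1
  rw [Kr.cp_eq, ← mul_assoc, h2] at h4
  obtain ⟨d, e⟩ := Nat.exists_eq_succ_of_ne_zero hd.ne'
  have h5 := Nat.le_of_mul_le_mul_right h4 Nat.card_pos
  rw [e, mul_pow, pow_succ' 3, mul_assoc] at h5
  rw [e]
  exact h3.trans (Nat.le_of_mul_le_mul_left h5 three_pos)

end Cfsg.Agent.S4990
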