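import Cfsg.Statements.S4993
import Cfsg.Agent.H4.PrimDeg

set_option autoImplicit false
open Cfsg

namespace Cfsg.Agent.S4993

/-- Let G be a group of odd order whose order has exactly two prime divisors and whose quotient by its Fitting subgroup is nilpotent (G is metanilpotent), and let χ be a primitive irreducible complex character of G (not induced from a character of any proper subgroup). Then χ(1) divides the size of some conjugacy class of G. -/
theorem result {G : Type*} [Group G] [Fintype G] (hodd : Odd (Nat.card G)) (h2 : (Nat.card G).primeFactors.card = 2) [hF : (Cfsg.fittingSubgroup G).Normal] (hmeta : Group.IsNilpotent (G ⧸ Cfsg.fittingSubgroup G)) (χ : Cfsg.IrrCharacter G) (hprim : ¬ ∃ (H : Subgroup G), H ≠ ⊤ ∧ ∃ θ : ↥H → ℂ, Cfsg.IsCharacter ↥H θ ∧ Cfsg.indFun H θ = (χ : G → ℂ)) : ∃ g : G, Cfsg.charDegree (χ : G → ℂ) ∣ (Subgroup.centralizer ({g} : Set G)).index := by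
  classical
  haveI := hmeta
  let π := QuotientGroup.mk' (fittingSubgroup G)
  have hπ : Function.Surjective π := QuotientGroup.mk'_surjective _
  have hs : Group.IsSolvable G :=
    Group.isSolvable_of_ker_le_range (fittingSubgroup G).subtype π (by simp [π])
  obtain ⟨p, q, hpq, h⟩ := Finset.card_eq_two.1 h2
  haveI hp : Fact p.Prime := ⟨Nat.prime_of_mem_primeFactors (n := Nat.card G) (by rw [h]; simp)⟩
  haveI hq : Fact q.Prime := ⟨Nat.prime_of_mem_primeFactors (n := Nat.card G) (by rw [h]; simp)⟩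
  have key : ∀ (r : ℕ) [Fact r.Prime] (P : Sylow r (G ⧸ fittingSubgroup G)), ∃ g, ∀ m, π m ∈ P →
      (charDegree (χ : G → ℂ)).factorization r ≤
        (Subgroup.centralizer {g * m}).index.factorization r := fun r _ P => by
    haveI : (P : Subgroup (G ⧸ fittingSubgroup G)).Normal := inferInstance
    refine Cfsg.Agent.H4.IsPrim.exists_le_class_fit hs χ.2 hprim r
      ((P : Subgroup (G ⧸ fittingSubgroup G)).comap π) fun m hm => ?_
    obtain ⟨j, hj⟩ := P.2 ⟨_, hm⟩
    refine ⟨j, (QuotientGroup.eq_one_iff _).1 ?_⟩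
    exact (map_pow π m _).trans (congrArg Subtype.val hj)
  let P : Sylow p (G ⧸ fittingSubgroup G) := default
  let Q : Sylow q (G ⧸ fittingSubgroup G) := default
  obtain ⟨x, hx⟩ := key p P
  obtain ⟨y, hy⟩ := key q Q
  have hr : ∀ r : ℕ, r.Prime → r ∣ Nat.card G → r = p ∨ r = q := fun r h1 h2 => by
    have : r ∈ (Nat.card G).primeFactors := Nat.mem_primeFactors.2 ⟨h1, h2, Nat.card_pos.ne'⟩
    rw [h] at this
    simpa using this
  have hPQ : (P : Subgroup (G ⧸ fittingSubgroup G)) ⊔ Q = ⊤ := by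
    rw [← Subgroup.index_eq_one]
    refine Nat.eq_one_iff_not_exists_prime_dvd.2 fun r h1 h2 => ?_
    rcases hr r h1 (h2.trans ((Subgroup.index_dvd_card _).trans
      (Subgroup.card_quotient_dvd_card _))) with rfl | rfl
    · exact P.not_dvd_index (h2.trans (Subgroup.index_dvd_of_le le_sup_left))
    · exact Q.not_dvd_index (h2.trans (Subgroup.index_dvd_of_le le_sup_right))
  obtain ⟨a, ha, b, hb, e⟩ := Subgroup.mem_sup_of_normal_left.1
    (show π (x⁻¹ * y) ∈ (P : Subgroup (G ⧸ fittingSubgroup G)) ⊔ Q from hPQ ▸ Subgroup.mem_top _)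
  obtain ⟨b, rfl⟩ := hπ b
  have h3 := hx (x⁻¹ * y * b⁻¹) (by rwa [map_mul, map_inv, ← e, mul_inv_cancel_right])
  have h4 := hy b⁻¹ (by rw [map_inv]; exact inv_mem hb)
  rw [show x * (x⁻¹ * y * b⁻¹) = y * b⁻¹ by group] at h3
  refine ⟨y * b⁻¹, (Nat.factorization_prime_le_iff_dvd χ.2.charDegree_pos.ne'
    Subgroup.index_ne_zero_of_finite).1 fun r h1 => ?_⟩
  by_cases h5 : r ∣ charDegree (χ : G → ℂ)
  · rcases hr r h1 (h5.trans χ.2.charDegree_dvd_card) with rfl | rfl
    · exact h3
    · exact h4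
  · rw [Nat.factorization_eq_zero_of_not_dvd h5]
    exact Nat.zero_le _

end Cfsg.Agent.S4993
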