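import Cfsg.Statements.S5011
import Cfsg.Agent.H4.IndRep
import Cfsg.Agent.H3.Basic

set_option autoImplicit false
open Cfsg

namespace Cfsg.Agent.S5011

/-- Let G be a finite non-abelian simple group and ρ an irreducible complex representation of G on a space of dimension greater than one (irreducible in the sense that the only subspaces invariant under every ρ(x) are 0 and the whole space). Then for every non-identity element g of G, the centralizer of g does not act irreducibly: there is a non-zero proper subspace invariant under ρ(c) for every c commuting with g. -/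
theorem result {G : Type*} [Group G] [Finite G] [IsSimpleGroup G]
    (hG : ¬ IsMulCommutative G) {V : Type*} [AddCommGroup V] [Module ℂ V] [FiniteDimensional ℂ V]
    (ρ : Representation ℂ G V)
    (hirr : ∀ W : Submodule ℂ V, (∀ x : G, ∀ v ∈ W, ρ x v ∈ W) → W = ⊥ ∨ W = ⊤)
    (hdim : 1 < Module.finrank ℂ V) (g : G) (hg : g ≠ 1) :
    ∃ W : Submodule ℂ V, W ≠ ⊥ ∧ W ≠ ⊤ ∧ ∀ c ∈ Subgroup.centralizer ({g} : Set G), ∀ v ∈ W, ρ c v ∈ W := by
  by_contra hcon
  push Not at hcon
  have hnt : Nontrivial V := Module.nontrivial_of_finrank_pos (R := ℂ) (by omega)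
  have h1 : Representation.IsIrreducible (ρ.comp (Subgroup.centralizer ({g} : Set G)).subtype) := by
    rw [H4.isIrreducible_iff_submodule]
    refine ⟨hnt, fun U hU => ?_⟩
    by_contra h
    push Not at h
    obtain ⟨c, hc, v, hv, h2⟩ := hcon U h.1 h.2
    exact h2 (hU ⟨c, hc⟩ v hv)
  obtain ⟨c, hc⟩ := H3.exists_eq_smul_id_of_comm
    (ρ.comp (Subgroup.centralizer ({g} : Set G)).subtype) (ρ g) (fun x v => by
      have hx : g * x = x * g := x.2 g rfl
      change ρ g (ρ x v) = ρ x (ρ g v)
      rw [← Module.End.mul_apply, ← map_mul, hx, map_mul, Module.End.mul_apply])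
  have hker : ρ.ker = ⊥ := by
    rcases (MonoidHom.normal_ker ρ).eq_bot_or_eq_top with h | h
    · exact h
    · exfalso
      obtain ⟨v, hv⟩ := exists_ne (0 : V)
      rcases hirr (Submodule.span ℂ {v}) (fun x w hw => by
        have : ρ x = 1 := (show x ∈ ρ.ker from h ▸ Subgroup.mem_top x)
        rw [this]; exact hw) with h2 | h2
      · exact hv (Submodule.span_singleton_eq_bot.1 h2)
      · have := finrank_span_singleton (K := ℂ) hv
        rw [h2, finrank_top] at this
        omega
  have hinj := (MonoidHom.ker_eq_bot_iff ρ).1 hker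
  have hz : g ∈ Subgroup.center G := by
    rw [Subgroup.mem_center_iff]
    intro x
    apply hinj
    rw [map_mul, map_mul, hc]
    ext v
    simp
  rcases (inferInstance : (Subgroup.center G).Normal).eq_bot_or_eq_top with h | h
  · rw [h] at hz; exact hg hz
  · exact hG ⟨⟨fun a b => (Subgroup.mem_center_iff.1 (h ▸ Subgroup.mem_top b : b ∈ _) a)⟩⟩

end Cfsg.Agent.S5011
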