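import Cfsg.Statements.S5012
import Cfsg.Agent.Lt.CCl2
import Cfsg.Agent.Lt.O2
import Cfsg.Agent.Lt.Ex
import Cfsg.Agent.Lt.Gr6
import Cfsg.Agent.Lt.H2e
import Cfsg.Agent.Lt.R2
import Cfsg.Agent.Lt.R9
import Cfsg.Agent.Lt.T4

set_option autoImplicit false
open Cfsg

namespace Cfsg.Agent.S5012

/-- Let G be a finite simple group of Lie type in characteristic p. Then every p-block of G has defect zero or full defect: its defect is 0 or the exponent of p in the order of G (its defect groups are trivial or Sylow p-subgroups). -/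
theorem result {G : Type*} [Group G] [Finite G] (p : ℕ) [Fact p.Prime] (hG : Cfsg.IsLieTypeChar p G) (M : Ideal Cfsg.AlgInt) (hM : Cfsg.IsPModular p M) (B : Set (Cfsg.IrrCharacter G)) (hB : Cfsg.IsPBlock M B) : Cfsg.blockDefect p B = 0 ∨ Cfsg.blockDefect p B = (Nat.card G).factorization p := by
  refine Lt.GP.blocks ?_ M hM B hB
  rcases hG with h | h | h | h | h | h | h | h | ⟨rfl, h⟩ | ⟨rfl, h⟩ | ⟨rfl, h⟩
  exacts [Lt.gp_psl h, Lt.gp_psp h, Lt.gp_psu h, Lt.O.gp_omegaOdd h, Lt.O.gp_omegaPlus h, Lt.O.gp_omegaMinus h,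
    Lt.gp_exceptional h, Lt.gp_tw h, Lt.gp_sz h, Lt.gp_2F4 h, Lt.gp_ree h]

end Cfsg.Agent.S5012
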