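import Cfsg.Statements.S5155
import Cfsg.Agent.H9.Cent

set_option autoImplicit false
open Cfsg

namespace Cfsg.Agent.S5155

/-- Let F be a saturated fusion system over a finite p-group S, E a normal subsystem over T, and Y the largest subgroup of C_S(T) such that E is a subsystem of the centralizer system of Y (every map of E extends to a map of F fixing Y elementwise). Then there is a normal subsystem of F over Y that is a subsystem of the centralizer system of T. -/
theorem result {Ω : Type*} [Group Ω] {S : Subgroup Ω} [Finite S] (p : ℕ) [Fact p.Prime] (hS : IsPGroup p S) (F : Cfsg.FusionSystem S) (hF : F.IsSaturated p) {T : Subgroup Ω} (E : Cfsg.FusionSystem T) (hE : E.IsNormalIn F p) (Y : Subgroup Ω) (hY : Y ≤ Cfsg.FusionSystem.centralizerIn S T) (hEY : ∀ P : Subgroup Ω, E.Hom P ⊆ F.centralizerHom Y P) (hmax : ∀ Y' : Subgroup Ω, Y' ≤ Cfsg.FusionSystem.centralizerIn S T → (∀ P : Subgroup Ω, E.Hom P ⊆ F.centralizerHom Y' P) → Y' ≤ Y) : ∃ D : Cfsg.FusionSystem Y, D.IsNormalIn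 F p ∧ ∀ P : Subgroup Ω, D.Hom P ⊆ F.centralizerHom T P := by
  have := Cfsg.Fus.finite_of_le hE.le
  obtain rfl : Y = F.cS E p := le_antisymm (hE.le_cS hS (Cfsg.FusionSystem.cz_iff.2 hEY))
    (hmax _ (F.cS_le E p) (Cfsg.FusionSystem.cz_iff.1 (hE.cz_cS hS)))
  obtain ⟨D, d1, d2, -⟩ := hE.exists_centralizer hS
  have := Cfsg.Fus.finite_of_le d1.le
  exact ⟨D, d1, Cfsg.FusionSystem.cz_iff.1 d2⟩

end Cfsg.Agent.S5155
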