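import Cfsg.Statements.S5193
import Mathlib
import Cfsg.Agent.H2.Glaub2

set_option autoImplicit false
open Cfsg

namespace Cfsg.Agent.S5193

/-- Glauberman's Theorem for fusion systems. Let F be a saturated fusion system over a finite p-group S, let J(S) be the subgroup generated by the abelian subgroups of S of largest order, and let N be the normalizer fusion system of J(S) in F (a fusion system over N_S(J(S)) = S). Then every p-th power of an element of Z(S) that lies in the centre of N lies in the centre of F; and if p is odd, or if the symmetric group of degree 4 is not involved in any model of the normalizer system of a fully normalized F-centric subgroup (F is S₄-free), then the centre of N equals the centre of F. -/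
theorem result {Ω : Type*} [Group Ω] {S : Subgroup Ω} [Finite S] (p : ℕ) [Fact p.Prime] (hS : IsPGroup p S) (F : Cfsg.FusionSystem S) (hF : F.IsSaturated p) (N : Cfsg.FusionSystem (Cfsg.FusionSystem.normalizerIn S (Cfsg.thompsonSubgroupAOf S))) (hN : F.IsNormalizerSystem (Cfsg.thompsonSubgroupAOf S) N) : Subgroup.closure ((fun z : Ω => z ^ p) '' ((S ⊓ Subgroup.centralizer (S : Set Ω) : Subgroup Ω) : Set Ω)) ⊓ N.center ≤ F.center ∧ (p ≠ 2 ∨ F.IsSectionFree p (Equiv.Perm (Fin 4)) → N.center = F.center) := by
  have hn : S ≤ Subgroup.normalizer ((Cfsg.thompsonSubgroupAOf S : Subgroup Ω) : Set Ω) :=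
    Subgroup.le_normalizer.trans (H2.normalizer_le_normalizer_thompsonA S)
  have hV := H2.center_normalizerSystem_le hn N
  constructor
  · rw [H2.closure_pow_eq_powerClosure]
    refine (H2.isCentral_of_fix_functor_quad (W := fun Q _ => Cfsg.thompsonSubgroupA Q) hF hS
      (fun Q R _ _ _ _ φ => ?_) (fun Q _ _ _ x hx => ?_) H2.thompsonA_quad inf_le_left fun σ hσ =>
      H2.fix_center_normalizerSystem hN inf_le_right ?_ hσ).le_center
    · rw [← H2.thompsonA_top, ← H2.thompsonA_top, H2.map_thompsonA _ φ.injective]
      congr 1
      exact Subgroup.map_top_of_surjective _ φ.surjective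
    · rw [← H2.thompsonA_top]
      exact H2.center_le_thompsonA _ ⟨trivial, fun y _ => Subgroup.mem_center_iff.1 hx y⟩
    · exact inf_le_left.trans ((H2.powerClosure_le 1 _).trans (H2.center_le_thompsonA S))
  · intro hp
    exact le_antisymm (H2.isCentral_of_fix_thompsonA hF hS (H2.odd_or_not_fWit hF hS hp) hV
      fun σ hσ => H2.fix_center_normalizerSystem hN le_rfl (hV.trans (H2.center_le_thompsonA S))
        hσ).le_center (H2.center_le_center_normalizerSystem hF hS (H2.thompsonA_le S) hn hN)

end Cfsg.Agent.S5193
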