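import Cfsg.Statements.S5194
import Mathlib
import Cfsg.Agent.H2.Glaub2

set_option autoImplicit false
open Cfsg

namespace Cfsg.Agent.S5194

/-- Thompson's normal p-complement Theorem for fusion systems. Let F be a saturated fusion system over a finite p-group S such that p is odd or F is S₄-free (the symmetric group of degree 4 is not involved in any model of the normalizer system of a fully normalized F-centric subgroup), and let J(S) be the subgroup generated by the abelian subgroups of S of largest order. If the centralizer fusion system of Z(S) in F is the inner fusion system of C_S(Z(S)) = S and the normalizer fusion system of J(S) in F is the inner fusion system of N_S(J(S)) = S, then F is the inner fusion system of S. -/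
theorem result {Ω : Type*} [Group Ω] {S : Subgroup Ω} [Finite S] (p : ℕ) [Fact p.Prime] (hS : IsPGroup p S) (F : Cfsg.FusionSystem S) (hF : F.IsSaturated p) (hp : p ≠ 2 ∨ F.IsSectionFree p (Equiv.Perm (Fin 4))) (hC : ∀ C : Cfsg.FusionSystem (Cfsg.FusionSystem.centralizerIn S (S ⊓ Subgroup.centralizer (S : Set Ω))), F.IsCentralizerSystem (S ⊓ Subgroup.centralizer (S : Set Ω)) C → ∀ P : Subgroup Ω, C.Hom P = (Cfsg.innerFusionSystem (Cfsg.FusionSystem.centralizerIn S (S ⊓ Subgroup.centralizer (S : Set Ω)))).Hom P) (hN : ∀ N : Cfsg.FusionSystem (Cfsg.FusionSystem.normalizerIn S (Cfsg.thompsonSubgroupAOf S)), F.IsNormalizerSystem (Cfsg.thompsonSubgroupAOf S) N → ∀ P : Subgroup Ω, N.Hom P = (Cfsg.innerFusionSystem (Cfsg.FusionSystem.normalizerIn S (Cfsg.thompsonSubgroupAOf S))).Hom P) : ∀ P : Subgroup Ω, F.Hom P = (Cfsg.innerFusionSystem S).Hom P := by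
  open Cfsg.FusionSystem Cfsg.Fus in
  have hZ : F.IsCentral (S ⊓ Subgroup.centralizer (S : Set Ω)) := by
    refine H2.isCentral_of_fix_thompsonA hF hS (H2.odd_or_not_fWit hF hS hp) le_rfl
      fun σ hσ x hx => ?_
    have h1 := F.isNormalizerSystem_normSys9 _ (H2.thompsonA_le S)
    have h2 := (H2.iso_normalizerSystem h1 hσ).isMap
    rw [ext_hom (hN _ h1)] at h2
    obtain ⟨-, g, hg, h3⟩ := isMap_inner.1 h2
    rw [h3 x (H2.center_le_thompsonA S hx), Subgroup.mem_centralizer_iff.1 hx.2 g hg.1]
    group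
  open Cfsg.FusionSystem Cfsg.Fus in
  have : F = Cfsg.innerFusionSystem S := by
    refine eq_inner_iff.2 fun P f hf => ?_
    have h1 := F.isCentralizerSystem_centSys9 (S ⊓ Subgroup.centralizer (S : Set Ω)) inf_le_left
    have h2 : (F.centSys9 _ (inf_le_left : S ⊓ Subgroup.centralizer (S : Set Ω) ≤ S)).IsMap P f :=
      isMap_centSys9.2 ⟨fun x hx => ⟨hf.le hx, Subgroup.le_centralizer_iff.1 inf_le_right
        (hf.le hx)⟩, (isCentral_iff.1 hZ).2 P f hf⟩
    rw [ext_hom (hC _ h1)] at h2
    obtain ⟨-, g, hg, h3⟩ := isMap_inner.1 h2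
    exact ⟨g, hg.1, h3⟩
  intro P
  rw [this]

end Cfsg.Agent.S5194
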