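import Cfsg.Statements.S5196
import Mathlib
import Cfsg.Agent.H2.Glaub2

set_option autoImplicit false
universe u
open Cfsg

namespace Cfsg.Agent.S5196

/-- Let p be an odd prime and W a positive characteristic p-functor: W assigns to every finite p-group Q (in a fixed universe) a subgroup W(Q), nontrivial when Q is, carried to W(R) by every isomorphism Q ≅ R; assume also Z(Q) ≤ W(Q) for every finite p-group Q. Suppose W satisfies the local condition: for every finite group G with Sylow p-subgroup P, O_p(G) ∩ Z(G) = O_p(G) ∩ Z(N_G(W(P))). Then W controls weak closure of elements in every saturated fusion system F over a finite p-group S: the centre of the normalizer fusion system of W(S) in F equals the centre of F. (For p = 2 no functor satisfies the local condition, so p is taken odd.) -/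
theorem result {p : ℕ} [Fact p.Prime] (hp : p ≠ 2) (W : ∀ (Q : Type u) [Group Q], Subgroup Q) (hW1 : ∀ (Q : Type u) [Group Q] [Finite Q], IsPGroup p Q → Nontrivial Q → W Q ≠ ⊥) (hW2 : ∀ (Q R : Type u) [Group Q] [Group R] [Finite Q], IsPGroup p Q → ∀ φ : Q ≃* R, (W Q).map φ.toMonoidHom = W R) (hWZ : ∀ (Q : Type u) [Group Q] [Finite Q], IsPGroup p Q → Subgroup.center Q ≤ W Q) (hC : ∀ (G : Type u) [Group G] [Finite G] (P : Sylow p G), Cfsg.pCore p G ⊓ Subgroup.center G = Cfsg.pCore p G ⊓ (Subgroup.center ↥(Subgroup.normalizer (((W ↥(P : Subgroup G)).map (P : Subgroup G).subtype : Subgroup G) : Set G))).map (Subgroup.normalizer (((W ↥(P : Subgroup G)).map (P : Subgroup G).subtype : Subgroup G) : Set G)).subtype) {Ω : Type u} [Group Ω] {S : Subgroup Ω} [Finite S] (hS : IsPGroup p S) (F : Cfsg.FusionSystem S) (hF : F.IsSaturated p) (N : Cfsg.FusionSystem (Cfsg.FusionSystem.normalizerIn S ((W ↥S).map S.subtype))) (hN : F.IsNormalizerSystem ((W ↥S).map S.subtype) N) : N.center = F.center := by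
  have hn : S ≤ Subgroup.normalizer ((H2.WO W S : Subgroup Ω) : Set Ω) :=
    Subgroup.le_normalizer.trans (H2.le_normalizer_WO hW2 hS)
  have hV := H2.center_normalizerSystem_le hn N
  refine le_antisymm (Cfsg.FusionSystem.IsCentral.le_center ?_)
    (H2.center_le_center_normalizerSystem hF hS (H2.WO_le W S) hn hN)
  refine H2.isCentral_of_models hF hS (fun R => H2.WO W R) (H2.equivar_WO hW2)
    (fun R _ => H2.WO_le W R) hV (fun R hR => ?_) (fun σ hσ =>
      H2.fix_center_normalizerSystem hN le_rfl (hV.trans (H2.center_le_WO hWZ hS)) hσ)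
    fun Q hQ G _ _ T θ θ' hc t hG h => ?_
  · haveI := Cfsg.Fus.finite_of_le hR.le
    exact fun x hx => H2.center_le_WO hWZ (Cfsg.Fus.isPGroup_of_le hS hR.le)
      ⟨H2.center_le_of_centric hR (hV hx), Subgroup.centralizer_le hR.le (hV hx).2⟩
  · rw [eq_top_iff]
    intro g _
    rw [Subgroup.mem_centralizer_iff]
    intro y hy
    have h1 := H2.transp_img_center_le t.piso hQ (Cfsg.Fus.img_mono θ hV hy)
    have h2 : y ∈ Cfsg.pCore p G := hG (Subgroup.centralizer_le (H1.pCore_le_sylow T) h1.2)
    have h3 : y ∈ Subgroup.normalizer ((H2.WO W (T : Subgroup G) : Subgroup G) : Set G) :=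
      H2.le_normalizer_WO hW2 T.isPGroup' (Subgroup.le_normalizer h1.1)
    have h4 : y ∈ Cfsg.pCore p G ⊓ Subgroup.center G := by
      rw [hC G T]
      exact ⟨h2, ⟨y, h3⟩, Subgroup.mem_center_iff.2 fun n =>
        Subtype.ext (Subgroup.mem_centralizer_iff.1 (h n.2) y hy).symm, rfl⟩
    exact (Subgroup.mem_center_iff.1 h4.2 g).symm

end Cfsg.Agent.S5196
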