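import Cfsg.Statements.S5210
import Cfsg.Agent.Fu.Q
import Cfsg.Agent.Fu.R3
import Cfsg.Agent.Fu.TL2
import Cfsg.Agent.Fu.TC2
import Cfsg.Agent.Fu.TH3
import Cfsg.Agent.Fu.P4
-- import your own Cfsg.Agent.* helpers here

set_option autoImplicit false
open Cfsg

namespace Cfsg.Agent.S5210

/-- Let p be a prime, K a finite field with q² elements where q = pⁿ (n ≥ 1), and S a finite p-group isomorphic to a Sylow p-subgroup of the projective special unitary group PSU₄(q) realised over K. Then every saturated fusion system F over S with no nontrivial normal subgroup (O_p(F) = 1) is realizable: it is the fusion system of a finite group on a Sylow p-subgroup. -/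
theorem result {Ω : Type*} [Group Ω] {S : Subgroup Ω} [Finite S] (p : ℕ) [Fact p.Prime] (hS : IsPGroup p S) (F : Cfsg.FusionSystem S) (hF : F.IsSaturated p) {K : Type*} [Field K] [Fintype K] [CharP K p] (n : ℕ) (hn : 1 ≤ n) (hK : Fintype.card K = (p ^ n) ^ 2) (T : Sylow p (Cfsg.PSU 4 K (p ^ n))) (e : ↥S ≃* ↥(T : Subgroup (Cfsg.PSU 4 K (p ^ n)))) (hcore : F.core = ⊥) : F.IsRealizable p := by
  obtain ⟨_, _, ⟨e'⟩⟩ := Fu.exists_equiv hK T
  obtain ⟨θ, t⟩ := L.exists_pIso_of_injective (e.trans e').toMonoidHom (e.trans e').injective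
  obtain ⟨G, t'⟩ := t.exists_transp le_rfl F (S' := ⊤)
    (t.img_self.trans (MonoidHom.range_eq_top.2 (e.trans e').surjective))
  have hc : G.core = ⊥ := by rw [← t'.img_core, hcore]; exact t.hom.img_bot
  exact t'.symm.isRealizable' (Fu.main (t'.isSaturated hF) fun h2 s hs hE =>
    Fu.real_two (t'.isSaturated hF) h2 hs hE hc)

end Cfsg.Agent.S5210
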