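import Cfsg.Statements.S5212
import Cfsg.Agent.H8.Res

set_option autoImplicit false
open Cfsg

namespace Cfsg.Agent.S5212

/-- Let S be a finite metacyclic 2-group that is not homocyclic abelian (a direct product of cyclic groups of one common order), not dihedral, not semidihedral and not generalized quaternion. Then every saturated fusion system over S is the inner fusion system of S. -/
theorem result {Ω : Type*} [Group Ω] {S : Subgroup Ω} [Finite S] (hS : IsPGroup 2 S) (F : Cfsg.FusionSystem S) (hF : F.IsSaturated 2) (hm : Cfsg.IsMetacyclic ↥S) (hh : ¬ ∃ n k : ℕ, Nonempty (↥S ≃* Multiplicative (Fin k → ZMod (2 ^ n)))) (hd : ¬ ∃ m : ℕ, Nonempty (↥S ≃* DihedralGroup m)) (hq : ¬ ∃ m : ℕ, Nonempty (↥S ≃* QuaternionGroup m)) (hsd : ¬ Cfsg.IsQuasiDihedral ↥S) : ∀ P : Subgroup Ω, F.Hom P = (Cfsg.innerFusionSystem S).Hom P := by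
  have hM : ¬ H8.MaxCl S := fun h => by
    rcases h.cases with ⟨n, -, h⟩ | h | ⟨n, -, h⟩
    exacts [hd ⟨n, h⟩, hsd h, hq ⟨n, h⟩]
  have hn := (H8.normal_or_maxCl F.stronglyClosed_top hF hS hm).resolve_right fun h => hM h.2
  refine fun P => congrArg (fun E => E.Hom P) (H8.eq_inner_of_isNormal hF hn ?_)
  obtain ⟨h1, h | ⟨n, -, ⟨e⟩⟩ | h | ⟨M, h2, h3, h4⟩⟩ := H8.metacyclic_cases hS hm (F.autGroup S)
  · obtain ⟨c, hc⟩ := isCyclic_iff_exists_zpowers_eq_top.1 h
    exact (H8.isPGroup_mulAut_of_cyclic_index_two hS (c := c) (fun α => hc ▸ Subgroup.mem_top _)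
      (by simp [hc])).to_subgroup _
  · exact absurd ⟨n, 2, ⟨e.trans ((MulEquiv.prodMultiplicative _ _).symm.trans
      (AddEquiv.toMultiplicative (RingEquiv.piFinTwo fun _ => ZMod (2 ^ n)).symm.toAddEquiv))⟩⟩ hh
  · exact absurd h.2 hM
  · exact H8.stab_two_of_rank_two hS h1 h2 h3 h4

end Cfsg.Agent.S5212
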