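import Cfsg.Statements.S5214
import Cfsg.Agent.St.Sz2

set_option autoImplicit false
open Cfsg

namespace Cfsg.Agent.S5214

/-- Let S be a Suzuki 2-group (a finite nonabelian 2-group with more than one involution admitting a cyclic group of automorphisms permuting its involutions regularly). Then S is normal in every saturated fusion system over S (such a group is resistant). -/
theorem result {Ω : Type*} [Group Ω] {S : Subgroup Ω} [Finite S] (hS : IsPGroup 2 S) (F : Cfsg.FusionSystem S) (hF : F.IsSaturated 2) (hsz : Cfsg.IsSuzukiTwoGroup ↥S) : F.IsNormal S := by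
  haveI : Fact (Nat.Prime 2) := ⟨Nat.prime_two⟩
  obtain ⟨h1, h2⟩ := St.suz_facts hsz
  have h1' : ∀ u ∈ S, u * u = 1 → ∀ y ∈ S, u * y = y * u := fun u hu e y hy =>
    congrArg Subtype.val (h1 ⟨u, hu⟩ (Subtype.ext e) ⟨y, hy⟩)
  let E : Subgroup Ω :=
    { carrier := {x | x ∈ S ∧ x * x = 1}
      one_mem' := ⟨S.one_mem, mul_one 1⟩
      mul_mem' := fun {x y} hx hy => ⟨S.mul_mem hx.1 hy.1, by
        rw [mul_assoc, ← mul_assoc y, ← h1' x hx.1 hx.2 y hy.1, mul_assoc, hy.2, mul_one, hx.2]⟩
      inv_mem' := fun {x} hx => ⟨S.inv_mem hx.1, by rw [← mul_inv_rev, hx.2, inv_one]⟩ }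
  have hE : F.StronglyClosed E := ⟨fun _ h => h.1, fun R hR φ hφ x => ⟨(F.le_of_mem hφ).2 x, by
    rw [← map_mul, show x * x = 1 from Subtype.ext (hR x.2).2, map_one]⟩⟩
  refine hF.isNormal_of_chain hS (C := fun i => if i = 0 then ⊥ else if i = 1 then E else S)
    (n := 2) rfl rfl (fun i hi => ?_) (fun i hi => ?_)
  · interval_cases i
    exacts [F.stronglyClosed_bot, hE, F.stronglyClosed_top]
  · interval_cases i
    · exact Subgroup.commutator_le.2 fun x hx y hy => Subgroup.mem_bot.2
        (commutatorElement_eq_one_iff_mul_comm.2 (h1' x hx.1 hx.2 y hy))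
    · exact Subgroup.commutator_le.2 fun x hx y hy => ⟨by
        rw [commutatorElement_def]
        exact S.mul_mem (S.mul_mem (S.mul_mem hx hy) (S.inv_mem hx)) (S.inv_mem hy),
        congrArg Subtype.val (h2 ⟨x, hx⟩ ⟨y, hy⟩)⟩

end Cfsg.Agent.S5214
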