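import Cfsg.Statements.S5219
import Cfsg.Agent.H1.FusCls

set_option autoImplicit false
open Cfsg

namespace Cfsg.Agent.S5219

/-- Let p be a prime, n a natural number, S a nontrivial finite p-group of nilpotence class at most n(p−1)+1, and F a saturated fusion system over S with no nontrivial normal subgroup (O_p(F) = 1). Then S has exponent dividing p^(n²(p−1)+n). -/
theorem result {Ω : Type*} [Group Ω] {S : Subgroup Ω} [Finite S] (p : ℕ) [Fact p.Prime] (hS : IsPGroup p S) (F : Cfsg.FusionSystem S) (hF : F.IsSaturated p) (n : ℕ) (hS1 : S ≠ ⊥) (hcl : Subgroup.lowerCentralSeries S (n * (p - 1) + 1) = ⊥) (hcore : F.core = ⊥) : Monoid.exponent ↥S ∣ p ^ (n ^ 2 * (p - 1) + n) := by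
  have h1 := (H1.isNormal_powerClosure_of_class hF hS hcl).le_core
  rw [hcore, le_bot_iff] at h1
  rw [Monoid.exponent_dvd_iff_forall_pow_eq_one]
  intro x
  have e : n ^ 2 * (p - 1) + n = n * (n * (p - 1) + 1) := by ring
  rw [e, pow_mul]
  refine H1.pow_eq_one_of_center (n * (p - 1) + 1) S ?_ (fun z hz => ?_) x
  · have := Subgroup.top_subtype_lowerCentralSeries S (n * (p - 1) + 1)
    rw [hcl] at this
    exact (Subgroup.map_eq_bot_iff_of_injective _ S.subtype_injective).1 this
  · have hz' : (z : Ω) ∈ H1.zc S :=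
      ⟨z.2, fun y hy => congrArg Subtype.val (Subgroup.mem_center_iff.1 hz ⟨y, hy⟩)⟩
    have := H1.pow_mem_powerClosure p n hz'
    rw [h1, Subgroup.mem_bot] at this
    exact Subtype.ext this

end Cfsg.Agent.S5219
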