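import Cfsg.Statements.S5222
import Cfsg.Agent.H8.Tate

set_option autoImplicit false
open Cfsg

namespace Cfsg.Agent.S5222

/-- Let F be a saturated fusion system over a finite p-group S whose normalizer fusion system of S is the inner fusion system of S (Aut_F(S) is a p-group). Then for every subgroup Q of S with [S, S] ≤ Q ≤ Φ(S), the normalizer fusion system of Q in F is the inner fusion system of N_S(Q) = S. -/
theorem result {Ω : Type*} [Group Ω] {S : Subgroup Ω} [Finite S] (p : ℕ) [Fact p.Prime] (hS : IsPGroup p S) (F : Cfsg.FusionSystem S) (hF : F.IsSaturated p) (hN : ∀ N : Cfsg.FusionSystem (Cfsg.FusionSystem.normalizerIn S S), F.IsNormalizerSystem S N → ∀ P : Subgroup Ω, N.Hom P = (Cfsg.innerFusionSystem (Cfsg.FusionSystem.normalizerIn S S)).Hom P) (Q : Subgroup Ω) (h1 : (commutator ↥S).map S.subtype ≤ Q) (h2 : Q ≤ (frattini ↥S).map S.subtype) : ∀ N : Cfsg.FusionSystem (Cfsg.FusionSystem.normalizerIn S Q), F.IsNormalizerSystem Q N → ∀ P : Subgroup Ω, N.Hom P = (Cfsg.innerFusionSystem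 (Cfsg.FusionSystem.normalizerIn S Q)).Hom P := by
  have hSS : FusionSystem.normalizerIn S S = S :=
    le_antisymm (Fus.normalizerIn_le S S) (Fus.le_normalizerIn le_rfl)
  rw [S.map_subtype_commutator] at h1
  have hQS : Q ≤ S := h2.trans (Subgroup.map_subtype_le _)
  have hn : S ≤ Subgroup.normalizer (Q : Set Ω) :=
    (Subgroup.normal_subgroupOf_iff_le_normalizer hQS).1 (H8.normal_subgroupOf_of_commutator_le h1)
  have hSQ : FusionSystem.normalizerIn S Q = S :=
    le_antisymm (Fus.normalizerIn_le S Q) (le_inf le_rfl hn)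
  intro N hN' P
  have key : ∀ (S₁ : Subgroup Ω) (N : FusionSystem S₁), S₁ = S → N.IsSaturated p →
      N.IsSubsystemOf F → N.StronglyClosed Q → N = innerFusionSystem S₁ := by
    rintro _ N rfl h3 h4 h5
    refine H8.eq_inner_of_focal_le_frattini h3 hS ((H8.focal_le_of_stronglyClosed h3 hS h5 h1
      fun σ hσ x hx => ?_).trans h2)
    have h6 := hN _ (F.isNormalizerSystem_normSys9 _ le_rfl)
    obtain ⟨-, g, hg, h7⟩ := FusionSystem.isMap_inner.1 ((FusionSystem.hom_eq_iff.1 (h6 _) σ).1
      (FusionSystem.isMap_normSys9.2 ⟨hSS.ge, σ, by rw [sup_idem]; exact h4.isMap hσ.isMap,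
        fun _ _ => rfl, hσ.img_eq⟩))
    rw [h7 x hx]
    exact h1 (Fus.inv_mul_conj_mem_commutator hg.1 hx)
  rw [← key _ N hSQ (hN'.isSaturated hF hS (F.isFullyNormalized_of_le_normalizer hQS hn))
    hN'.isSubsystemOf (hN'.isNormal hQS).stronglyClosed]

end Cfsg.Agent.S5222
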