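import Cfsg.Statements.S5226
import Cfsg.Agent.H7.Normal

set_option autoImplicit false
open Cfsg

namespace Cfsg.Agent.S5226

open Cfsg.Fus Cfsg.FusionSystem

/-- Let F be a saturated fusion system over a finite p-group S and Q a subgroup of S. Then Q is normal in F (F equals the normalizer system of Q) if and only if Q is strongly closed in F and admits a central series 1 = Q₀ ≤ Q₁ ≤ ⋯ ≤ Qₙ = Q ([Qᵢ₊₁, Q] ≤ Qᵢ) all of whose proper terms are weakly closed in F. -/
theorem result {Ω : Type*} [Group Ω] {S : Subgroup Ω} [Finite S] (p : ℕ) [Fact p.Prime] (hS : IsPGroup p S) (F : Cfsg.FusionSystem S) (hF : F.IsSaturated p) (Q : Subgroup Ω) : F.IsNormal Q ↔ F.StronglyClosed Q ∧ ∃ (n : ℕ) (C : Fin (n + 1) → Subgroup Ω), C 0 = ⊥ ∧ C (Fin.last n) = Q ∧ Monotone C ∧ (∀ i : Fin n, ⁅C i.succ, Q⁆ ≤ C i.castSucc) ∧ ∀ i : Fin n, F.WeaklyClosed (C i.castSucc) := by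
  constructor
  · intro h
    have := finite_of_le h.le
    obtain ⟨n, hn⟩ := exists_zSer_eq (isPGroup_of_le hS h.le)
    exact ⟨h.stronglyClosed, n, fun i => zSer Q i, zSer_zero Q, hn, fun i j hij => zSer_mono Q hij,
      fun i => commutator_zSer_le Q i, fun i => (h.zSer _).stronglyClosed.weaklyClosed⟩
  · rintro ⟨hQ, n, C, h0, hn, hm, h, hw⟩
    refine hQ.isNormal_of_weaklyClosed_chain hF hS
      (C := fun i => if hi : i < n + 1 then C ⟨i, hi⟩ else ⊥) (n := n)
      (by simpa using h0) (by rw [dif_pos (by omega)]; exact hn) (fun i hi => ?_) (fun i hi => ?_) fun i hi => ?_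
    · rw [dif_pos (by omega), ← hn]
      exact hm (Fin.le_last _)
    · rw [dif_pos (by omega)]
      rcases hi.eq_or_lt with rfl | hi
      · exact (show C _ = Q from hn) ▸ hQ.weaklyClosed
      · exact hw ⟨i, hi⟩
    · rw [dif_pos (by omega), dif_pos (by omega)]
      exact h ⟨i, hi⟩

end Cfsg.Agent.S5226
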