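import Cfsg.Statements.S5227
import Cfsg.Agent.Co.Z2
import Cfsg.Agent.Co.Z3
import Cfsg.Agent.Co.J3
import Cfsg.Agent.Co.W2
import Cfsg.Agent.Co.U2
import Cfsg.Agent.Co.G1
import Cfsg.Agent.Co.A5
import Cfsg.Agent.Co.P1

set_option autoImplicit false
open Cfsg

namespace Cfsg.Agent.S5227

/-- Let S be a finite 3-group isomorphic to a Sylow 3-subgroup of the Conway group Co₁ and F a saturated fusion system over S with no nontrivial normal subgroup (O₃(F) = 1). Then F is realizable: it is the fusion system of a finite group on a Sylow 3-subgroup. -/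
theorem result {Ω : Type*} [Group Ω] {S : Subgroup Ω} [Finite S] (hS : IsPGroup 3 S) (F : Cfsg.FusionSystem S) (hF : F.IsSaturated 3) [Fact (Nat.Prime 3)] (T : Sylow 3 Cfsg.Spor.Co1) (e : ↥S ≃* ↥(T : Subgroup Cfsg.Spor.Co1)) (hcore : F.core = ⊥) : F.IsRealizable 3 := by
  obtain ⟨e'⟩ := Co.Mdl.s T
  obtain ⟨θ, t⟩ := L.exists_pIso_of_injective (e.trans e').toMonoidHom (e.trans e').injective
  obtain ⟨G, t'⟩ := t.exists_transp le_rfl F (S' := ⊤)
    (t.img_self.trans (MonoidHom.range_eq_top.2 (e.trans e').surjective))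
  exact t'.symm.isRealizable' (Co.main (t'.isSaturated hF) (by rw [← t'.img_core, hcore, t.img_bot]))

end Cfsg.Agent.S5227
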