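import Cfsg.Statements.S5233
import Cfsg.Agent.H8.GenES2

set_option autoImplicit false
open Cfsg

namespace Cfsg.Agent.S5233

/-- Let F be a saturated fusion system over a finite p-group S and P a subgroup of S strongly closed in F that is generalized extraspecial (its Frattini subgroup equals its commutator subgroup and has order p) and not isomorphic to E × A with A elementary abelian and E dihedral of order 8 (p = 2) or extraspecial of order p³ and exponent p (p odd). Then P is normal in F. -/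
theorem result {Ω : Type*} [Group Ω] {S : Subgroup Ω} [Finite S] (p : ℕ) [Fact p.Prime] (hS : IsPGroup p S) (F : Cfsg.FusionSystem S) (hF : F.IsSaturated p) (P : Subgroup Ω) (hP : F.StronglyClosed P) (hge : frattini ↥P = commutator ↥P ∧ Nat.card ↥(commutator ↥P) = p) (h2 : p = 2 → ¬ ∃ (A : Type) (_ : CommGroup A), (∀ a : A, a ^ 2 = 1) ∧ Nonempty (↥P ≃* DihedralGroup 4 × A)) (hodd : p ≠ 2 → ¬ ∃ (E : Type) (_ : Group E) (A : Type) (_ : CommGroup A), Cfsg.IsExtraspecial p E ∧ Nat.card E = p ^ 3 ∧ Monoid.exponent E = p ∧ (∀ a : A, a ^ p = 1) ∧ Nonempty (↥P ≃* E × A)) : F.IsNormal P := by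
  haveI := Fus.finite_of_le hP.1
  have hPp := Fus.isPGroup_of_le hS hP.1
  have hp : p.Prime := Fact.out
  obtain ⟨z, hz⟩ := (Subgroup.isCyclic_iff_exists_zpowers_eq_top (commutator P)).1
    (isCyclic_of_prime_card hge.2)
  have ord : orderOf z = p := by rw [← Nat.card_zpowers, hz, hge.2]
  have hzp : z ^ p = 1 := ord ▸ pow_orderOf_eq_one z
  have cen : z ∈ Subgroup.center P := by
    have := Fus.mem_centralizer_of_normal_zpowers (S := ⊤) (hPp.to_subgroup _) trivial hzp
      fun s _ => hz ▸ (inferInstance : (commutator P).Normal).conj_mem _ (hz ▸ Subgroup.mem_zpowers z) s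
    exact Subgroup.mem_center_iff.2 fun g => this g trivial
  refine (H8.normal_or_genES hP hF hS ord cen
    (fun x => hz ▸ hge.1 ▸ H8.pow_mem_frattini hPp x)
    (fun x y => hz ▸ hge.1 ▸ H8.comm_mem_frattini hPp x y)).resolve_right ?_
  rintro ⟨g, w, h, hw, hg⟩
  let e := (Shrink.mulEquiv.{0} (α := P)).symm
  haveI : Finite (Shrink.{0} P) := Finite.of_equiv _ e.toEquiv
  have h' := h.map e
  obtain ⟨E, A, hA, hgE, hwE, -, -, h1, h3, ⟨f⟩⟩ := h'.split (hPp.of_equiv e)
  letI : CommGroup A := { (inferInstance : Group A) with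
    mul_comm := fun a b => Subtype.ext (Subgroup.mem_center_iff.1 (hA b.2) a) }
  have hAp : ∀ a : A, a ^ p = 1 := fun a => Subtype.ext (h'.cp _ (hA a.2))
  have hw' : e w ^ p = 1 := by rw [← map_pow, hw, map_one]
  by_cases hp2 : p = 2
  · subst hp2
    obtain ⟨f'⟩ := h'.dihedral hw' hgE hwE h3
    exact h2 rfl ⟨A, inferInstance, hAp, ⟨e.trans (f.trans (f'.prodCongr (MulEquiv.refl A)))⟩⟩
  · refine hodd hp2 ⟨E, inferInstance, A, inferInstance, h1, h3, ?_, hAp, ⟨e.trans f⟩⟩
    haveI : Nontrivial E := Finite.one_lt_card_iff_nontrivial.1 (h3 ▸ Nat.one_lt_pow (by omega) hp.one_lt)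
    exact (Monoid.exponent_eq_prime_iff hp).2 fun x hx => orderOf_eq_prime (Subtype.ext
      (h'.pow_eq_one hp2 (by rw [← map_pow, hg hp2, map_one]) hw' x)) hx

end Cfsg.Agent.S5233
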