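import Cfsg.Statements.S5236
import Cfsg.Agent.H8.Semi
import Cfsg.Agent.H9.NormSys

set_option autoImplicit false
open Cfsg

namespace Cfsg.Agent.S5236

open Cfsg.Fus Cfsg.FusionSystem Cfsg.Agent.H8 in
theorem omegaOne_le {Ω : Type*} [Group Ω] (p : ℕ) (P : Subgroup Ω) : omegaOne p P ≤ P :=
  (Subgroup.closure_le _).2 fun _ hx => hx.1

/-- Let p be an odd prime, F a saturated fusion system over a finite p-group S and P a subgroup of S strongly closed in F. Then P is normal in F if and only if Ω₁(P) (the subgroup generated by the elements of order p of P) has a chain of subgroups 1 = Q₀ ≤ Q₁ ≤ ⋯ ≤ Qₙ = Ω₁(P), each strongly closed in F, with [Qᵢ₊₁, P] ≤ Qᵢ for all i. -/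
theorem result {Ω : Type*} [Group Ω] {S : Subgroup Ω} [Finite S] (p : ℕ) [Fact p.Prime] (hS : IsPGroup p S) (F : Cfsg.FusionSystem S) (hF : F.IsSaturated p) (hp : p ≠ 2) (P : Subgroup Ω) (hP : F.StronglyClosed P) : F.IsNormal P ↔ ∃ (n : ℕ) (Q : Fin (n + 1) → Subgroup Ω), Q 0 = ⊥ ∧ Q (Fin.last n) = Cfsg.omegaOne p P ∧ Monotone Q ∧ (∀ i : Fin (n + 1), F.StronglyClosed (Q i)) ∧ ∀ i : Fin n, ⁅Q i.succ, P⁆ ≤ Q i.castSucc := by
  open Cfsg.Fus Cfsg.FusionSystem Cfsg.Agent.H8 in
  constructor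
  · intro h
    have hO : F.IsNormal (omegaOne p P) := h.of_invariant9 (omegaOne_le p P) fun f hf he =>
      (hf.mono (omegaOne_le p P)).img_eq_self fun x hx => by
        refine Subgroup.closure_induction (p := fun x _ => f x ∈ omegaOne p P) (fun y hy => ?_)
          ?_ (fun a b ha hb h1 h2 => ?_) (fun a ha h1 => ?_) hx
        · exact Subgroup.subset_closure ⟨he ▸ mem_img_of_mem _ hy.1, by
            rw [← hf.homOn.map_pow hy.1, hy.2, hf.homOn.map_one]⟩
        · rw [hf.homOn.map_one]; exact Subgroup.one_mem _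
        · rw [hf.homOn (omegaOne_le p P ha) (omegaOne_le p P hb)]; exact Subgroup.mul_mem _ h1 h2
        · rw [hf.homOn.map_inv (omegaOne_le p P ha)]; exact Subgroup.inv_mem _ h1
    haveI := finite_of_le hP.1
    obtain ⟨n, hn⟩ := exists_zSer_eq (isPGroup_of_le hS hP.1)
    refine ⟨n, fun i => omegaOne p P ⊓ zSer P i, by simp [zSer_zero], by
      simp [hn, omegaOne_le], fun i j hij => inf_le_inf_left _ (zSer_mono P hij),
      fun i => hO.stronglyClosed.inf (h.zSer i).stronglyClosed, fun i => le_inf ?_ ?_⟩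
    · refine (Subgroup.commutator_mono inf_le_left hP.1).trans ?_
      exact Subgroup.commutator_le.2 fun a ha g hg => by
        have := hO.stronglyClosed.conj_mem hg (Subgroup.inv_mem _ ha)
        simpa [commutatorElement_def, mul_assoc] using Subgroup.mul_mem _ ha this
    · exact (Subgroup.commutator_mono inf_le_right le_rfl).trans (commutator_zSer_le P i)
  · rintro ⟨n, C, h0, hn, hm, hsc, hc⟩
    by_contra h
    obtain ⟨Q, hQ⟩ := exists_bad hP hF hS h
    obtain ⟨g, hg, hgn, -, hgo⟩ := hQ.exists_elt hP.1 hS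
    have hQS := hQ.lt.le.trans hP.1
    obtain ⟨D, hD, hDi, hDe, -, hdet⟩ := hF.exists_crit hS hQS
    have hDQ : D ≤ Q := hD.trans inf_le_left
    have hiso : F.Iso Q Q (cj g) := F.iso_cj hQS (hP.1 hg) hgn
    refine hgo (hdet.mem_opStab hiso hS (C := fun i => D ⊓ C ⟨min i n, by omega⟩) (n := n)
      (fun i _ => inf_le_left.trans hDQ) (by simpa using Or.inr h0 |>.elim id fun h => by simp [h])
      ?_ (fun i _ τ hτ x hx => ⟨hDi τ hτ x hx.1, ((hsc _).aInv_inf Q τ hτ x ⟨hDQ hx.1, hx.2⟩).2⟩)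
      fun i hi x hx => ⟨D.mul_mem (D.inv_mem hx.1) (hDi _ hiso x hx.1), ?_⟩)
    · refine inf_eq_left.2 fun x hx => ?_
      rw [show (⟨min n n, by omega⟩ : Fin (n + 1)) = Fin.last n by ext; simp, hn]
      exact Subgroup.subset_closure ⟨hQ.lt.le (hDQ hx), by simpa [expo, hp] using hDe x hx⟩
    · have h1 := hc ⟨i, hi⟩ (Subgroup.commutator_mem_commutator (Subgroup.inv_mem _ (x := x) (by
        rw [show (⟨i, hi⟩ : Fin n).succ = ⟨min (i + 1) n, by omega⟩ by ext; simp; omega]
        exact hx.2)) hg)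
      rw [show (⟨min i n, by omega⟩ : Fin (n + 1)) = (⟨i, hi⟩ : Fin n).castSucc by ext; simp; omega]
      simpa [commutatorElement_def, mul_assoc] using h1

end Cfsg.Agent.S5236
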