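import Cfsg.Statements.S5243
import Cfsg.Agent.H7.Red

set_option autoImplicit false
open Cfsg

namespace Cfsg.Agent.S5243

open Cfsg.Fus Cfsg.FusionSystem

/-- Let F be a saturated fusion system over a finite p-group S, E a normal subsystem of F over T ≤ S, and χ a surjective homomorphism from Aut_F(T) onto a nontrivial finite group Δ of order prime to p whose kernel contains Aut_E(T). Then there is a proper normal subsystem F₀ of F over S containing E such that Aut_{F₀}(S) consists of those α ∈ Aut_F(S) whose restriction to T is an element of Aut_F(T) in the kernel of χ; moreover every p'-residual subsystem O^{p'}(F) of F is contained in F₀. -/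
theorem result {Ω : Type*} [Group Ω] {S : Subgroup Ω} [Finite S] (p : ℕ) [Fact p.Prime] (hS : IsPGroup p S) (F : Cfsg.FusionSystem S) (hF : F.IsSaturated p) {T : Subgroup Ω} (hTS : T ≤ S) (E : Cfsg.FusionSystem T) (hE : E.IsNormalIn F p) {Δ : Type*} [Group Δ] [Finite Δ] [Nontrivial Δ] (hΔ : (Nat.card Δ).Coprime p) (χ : ↥(F.autGroup T) →* Δ) (hχ : Function.Surjective χ) (hker : (E.autGroup T).subgroupOf (F.autGroup T) ≤ χ.ker) : ∃ F₀ : Cfsg.FusionSystem S, F₀.IsNormalIn F p ∧ ¬ (∀ P : Subgroup Ω, F₀.Hom P = F.Hom P) ∧ E.IsSubsystemOf F₀ ∧ (∀ α : MulAut ↥S, α ∈ F₀.autGroup S ↔ α ∈ F.autGroup S ∧ ∃ β : ↥(F.autGroup T), χ β = 1 ∧ ∀ t : ↥T, (((β : MulAut ↥T) t : ↥T) : Ω) = ((α ⟨(t : Ω), hTS t.2⟩ : ↥S) : Ω)) ∧ ∀ R : Cfsg.FusionSystem S, F.IsPPrimeResidual p R → R.IsSubsystemOf F₀ := by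
  have hL := lGood_liftSub hker hE.sub
  have hq : ∀ σ, H8.QEl F p T σ → σ ∈ liftSub T (F.autGroup T) χ.ker := fun σ ⟨h1, k, h2⟩ => by
    refine mem_liftSub.2 ⟨h1.mem_stab, mem_of_pow_of_coprime (hΔ.pow_right k) ?_ ?_⟩
    · rw [MonoidHom.mem_ker, map_pow, pow_card_eq_one']
    · rw [← map_pow, (resLift_eq_one_iff _).2 h2]
      exact Subgroup.one_mem _
  obtain ⟨D, h1, h2, h3, h4⟩ := hL.exists_sys hE.wn hS hq
  have h5 := H8.hasPrimeToPIndexIn_of_isInvariantIn hF hS h2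
  refine ⟨D, IsWeaklyNormalIn.isNormalIn_of_le ⟨h1, hF, h2⟩ (centralizerIn_le _ _), fun h => ?_,
    h3, fun α => ?_, fun R hR => hR.2.2 D h1 h5⟩
  · obtain rfl := ext_hom h
    obtain ⟨d, hd⟩ := exists_ne (1 : Δ)
    obtain ⟨β, rfl⟩ := hχ d
    obtain ⟨σ, rfl⟩ := resLift_surjective T _ β
    exact hd ((coe_mem_liftSub σ).1 ((h4 T σ le_rfl).1 ((mem_stab hTS).1 σ.2)).2)
  · rw [mem_autGroup_iff le_rfl, mem_autGroup_iff le_rfl, h4 S _ hTS]
    refine and_congr_right fun h => ⟨fun h' => ?_, fun ⟨β, a, b⟩ => ?_⟩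
    · obtain ⟨a, b⟩ := mem_liftSub.1 h'
      exact ⟨_, b, fun t => by rw [resLift_apply]; exact extAut_of_mem α (hTS t.2)⟩
    · obtain ⟨σ, rfl⟩ := resLift_surjective T _ β
      refine mem_of_congr hL.fixP_le ((coe_mem_liftSub σ).2 a) fun x hx => ?_
      rw [extAut_of_mem α (hTS hx), ← b ⟨x, hx⟩, resLift_apply]

end Cfsg.Agent.S5243
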