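import Cfsg.Statements.S5244
import Cfsg.Agent.H1.AbCore

set_option autoImplicit false
open Cfsg

namespace Cfsg.Agent.S5244

/-- Let p be an odd prime, S a finite nonabelian p-group with a unique abelian subgroup A of index p, and F a saturated fusion system over S with no nontrivial normal subgroup (O_p(F) = 1) in which A is not F-essential. Then some subgroup Z(S)⟨x⟩ with x ∈ S outside A is F-essential, the centre Z(S) is contained in the commutator subgroup of S, and S has maximal nilpotency class (if S has order pⁿ with n ≥ 3, the term of index n − 2 of its lower central series, counting S itself as the term of index 0, is nontrivial). -/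
theorem result {Ω : Type*} [Group Ω] {S : Subgroup Ω} [Finite S] (p : ℕ) [Fact p.Prime] (hS : IsPGroup p S) (F : Cfsg.FusionSystem S) (hF : F.IsSaturated p) (hp : p ≠ 2) (hna : ¬ IsMulCommutative ↥S) (A : Subgroup Ω) (hA : A ≤ S ∧ IsMulCommutative ↥A ∧ (A.subgroupOf S).index = p) (huniq : ∀ B : Subgroup Ω, B ≤ S → IsMulCommutative ↥B → (B.subgroupOf S).index = p → B = A) (hcore : F.core = ⊥) (hAe : ¬ F.IsEssential p A) : (∃ x ∈ S, x ∉ A ∧ F.IsEssential p ((S ⊓ Subgroup.centralizer (S : Set Ω)) ⊔ Subgroup.zpowers x)) ∧ (S ⊓ Subgroup.centralizer (S : Set Ω)) ≤ (commutator ↥S).map S.subtype ∧ ∀ n : ℕ, Nat.card S = p ^ n → 3 ≤ n → Subgroup.lowerCentralSeries S (n - 2) ≠ ⊥ := by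
  have h : H1.AbIdx p S A := ⟨hS, hA.1, H1.comm_of_isMulCommutative hA.2.1, hA.2.2, hna⟩
  have hne : ∀ R, F.IsEssential p R → R ≠ A := fun R hR e => hAe (e ▸ hR)
  obtain ⟨⟨R, hR, hRZ⟩, h2⟩ := H1.zc_le_commutator hF hS hp hcore (by
      rintro rfl
      exact hna inferInstance) fun R hR => by
    obtain ⟨x, hx, hxA, -, -, h3 | h3⟩ := h.essential hF hR (hne R hR)
    · exact Or.inr h3.2
    · exact Or.inl h3.2.2
  obtain ⟨x, hx, hxA, h1, -, h3 | h3⟩ := h.essential hF hR (hne R hR)
  swap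
  · exact absurd h3.2.2 hRZ
  rw [Subgroup.map_subtype_commutator]
  refine ⟨⟨x, hR.le hx, hxA, h3.1 ▸ hR⟩, h2, fun n hn h3 hb => ?_⟩
  have h4 := h.card_zc_inf
  rw [h1, inf_eq_left.2 h2] at h4
  have h5 := H8.card_mul_relIndex' (inf_le_left : H1.zc S ≤ S)
  rw [h4, hn, show n = n - 1 + 1 by omega, pow_succ'] at h5
  refine h.not_lcs_le h1 (Nat.eq_of_mul_eq_mul_left (Fact.out : p.Prime).pos h5) (by omega)
    (le_inf (S.lowerCentralSeries_le_self _) ?_)
  rw [← Subgroup.commutator_eq_bot_iff_le_centralizer, ← Subgroup.lowerCentralSeries_succ,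
    show n - 1 - 2 + 1 = n - 2 by omega, hb]

end Cfsg.Agent.S5244
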