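import Cfsg.Statements.S5245
import Cfsg.Agent.H7.More

set_option autoImplicit false
open Cfsg

namespace Cfsg.Agent.S5245

open Cfsg.Fus Cfsg.FusionSystem

/-- Let F be an extremely sparse fusion system over a finite p-group S (saturated, not the inner system, and every saturated fusion system over any subgroup T of S contained in F is F itself or the inner system of T). Then S is normal in F, the focal and hyperfocal subgroups of F are both S, and Aut_F(S) is generated by the inner automorphisms of S together with a single automorphism of prime order q ≠ p (F is the fusion system of the semidirect product of S by a cyclic group of prime order). -/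
theorem result {Ω : Type*} [Group Ω] {S : Subgroup Ω} [Finite S] (p : ℕ) [Fact p.Prime] (hS : IsPGroup p S) (F : Cfsg.FusionSystem S) (hF : F.IsSaturated p) (hxs : ¬ (∀ P : Subgroup Ω, F.Hom P = (Cfsg.innerFusionSystem S).Hom P) ∧ ∀ (T : Subgroup Ω) (E : Cfsg.FusionSystem T), E.IsSaturated p → E.IsSubsystemOf F → (T = S ∧ ∀ P : Subgroup Ω, E.Hom P = F.Hom P) ∨ (∀ P : Subgroup Ω, E.Hom P = (Cfsg.innerFusionSystem T).Hom P)) : F.IsNormal S ∧ F.focalSubgroup = S ∧ F.hyperfocalSubgroup p = S ∧ ∃ (q : ℕ) (β : MulAut ↥S), q.Prime ∧ q ≠ p ∧ β ∈ F.autGroup S ∧ orderOf β = q ∧ (F.autGroup S : Subgroup (MulAut ↥S)) = Cfsg.Inn ↥S ⊔ Subgroup.zpowers β := by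
  obtain ⟨hni, hxs⟩ := hxs
  have key : ∀ P (σ : Equiv.Perm Ω) (q : ℕ), F.Iso P P σ → q.Coprime p → σ ^ q ∈ fixP P →
      σ ∉ fixP P → P = S ∧ F.IsNormal P ∧ F.stab P = innS P P ⊔ Subgroup.zpowers σ := by
    intro P σ q h1 h2 h3 h4
    obtain ⟨D, a1, a2, a3, a4⟩ := h1.exists_coprime_sys hS h2 h3
    rcases hxs P D a1 a2 with ⟨rfl, h⟩ | h
    · obtain rfl := ext_hom h
      exact ⟨rfl, a3, a4⟩
    · obtain rfl := ext_hom h
      rw [stab_inner le_rfl] at a4
      exact absurd (mem_fixP_of_mem_innS_of_coprime (isPGroup_of_le hS h1.le_left) h2 h3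
        (a4.ge (Subgroup.mem_sup_right (Subgroup.mem_zpowers σ)))) h4
  obtain ⟨P, hP, hnp⟩ : ∃ P, (P = S ∨ F.IsEssential p P) ∧ ¬ IsPMod p (fixP P) (F.stab P) := by
    by_contra h
    push Not at h
    exact hni fun P => by rw [hF.eq_inner_of_essential hS h]
  have hPS : P ≤ S := (hF.frc_of_alperin hS hP).1.le
  obtain ⟨q, hq, hqp, β, hβ, hβq⟩ := exists_prime_aut_of_not_isPMod hPS hnp
  have hc : q.Coprime p := (Nat.coprime_primes hq Fact.out).2 hqp
  have h1 := (mem_autGroup_iff hPS).1 hβ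
  have h2 : extAut P β ^ q ∈ fixP P := by
    rw [← map_pow, extAut_mem_fixP, ← hβq, pow_orderOf_eq_one]
  have h3 : extAut P β ∉ fixP P := fun h => by
    rw [extAut_mem_fixP.1 h, orderOf_one] at hβq
    exact hq.one_lt.ne hβq
  obtain ⟨rfl, a1, a2⟩ := key P _ q h1 hc h2 h3
  have hH : F.hyperfocalSubgroup p = P := by
    have hsc := H8.stronglyClosed_hyp hF hS
    refine (key _ _ q (hsc.iso h1.isMap hsc.le) hc (fixP_anti hsc.le h2) fun h => h3 ?_).1
    exact H8.PEl.mem_fixP_of_hyp ⟨h1, q, hc, h2⟩ hS (fixP_anti inf_le_left h)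
  refine ⟨a1, le_antisymm F.focalSubgroup_le (hH.ge.trans (H8.hyp_le_iff.2 fun Q σ hσ x hx =>
    hσ.1.isMap.inv_mul_mem_focal hx)), hH, q, β, hq, hqp, hβ, hβq, le_antisymm ?_
    (sup_le (F.Inn_le_autGroup le_rfl) (Subgroup.zpowers_le.2 hβ))⟩
  rw [← liftAut_le_iff]
  refine a2.le.trans (sup_le ?_ (Subgroup.zpowers_le.2 (extAut_mem_liftAut.2
    (Subgroup.mem_sup_right (Subgroup.mem_zpowers β)))))
  rw [innS_self]
  exact liftAut_le_iff.2 le_sup_left

end Cfsg.Agent.S5245
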