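import Cfsg.Statements.S5246
import Cfsg.Agent.H1.DStar
import Cfsg.Agent.L.Constr

set_option autoImplicit false
open Cfsg

namespace Cfsg.Agent.S5246

open Equiv Cfsg.Fus Cfsg.FusionSystem

theorem mk_mem_pCore_iff {N A : Type*} [Group N] [Group A] {p : ℕ} (f : N →* A) {C : Subgroup N}
    [C.Normal] (hC : f.ker = C) {R : Subgroup A} (hR : f.range = R) (x : N) :
    (QuotientGroup.mk x : N ⧸ C) ∈ pCore p (N ⧸ C) ↔ f x ∈ (pCore p R).map R.subtype := by
  subst hC hR
  rw [← H1.mem_pCore_equiv (QuotientGroup.quotientKerEquivRange f)]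
  exact (Subgroup.mem_map_iff_mem (f := f.range.subtype) f.range.subtype_injective).symm

theorem autGroup_eq {G : Type*} [Group G] {S P : Subgroup G} (h : P ≤ S) :
    P.normalizerMonoidHom.range = (groupFusionSystem S).autGroup P := by
  rw [L.groupFusionSystem_eq, L.autGroup_ofSubgroup _ h, L.autInducedBy_eq_map,
    Subgroup.top_subgroupOf, MonoidHom.range_eq_map]

theorem key {G : Type*} [Group G] {p : ℕ} {S P : Subgroup G} (h : P ≤ S) (g : G)
    (hg : g ∈ Subgroup.normalizer (P : Set G)) :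
    (QuotientGroup.mk (s := (Subgroup.centralizer (P : Set G)).subgroupOf
        (Subgroup.normalizer (P : Set G))) (⟨g, hg⟩ : ↥(Subgroup.normalizer (P : Set G)))) ∈
      pCore p (↥(Subgroup.normalizer (P : Set G)) ⧸
        (Subgroup.centralizer (P : Set G)).subgroupOf (Subgroup.normalizer (P : Set G))) ↔
    cj g ∈ (groupFusionSystem S).opStab p P := by
  rw [mk_mem_pCore_iff P.normalizerMonoidHom P.normalizerMonoidHom_ker (autGroup_eq h),
    ← H1.mem_opStab_iff]
  have he : ∀ x ∈ P, extAut P (P.normalizerMonoidHom ⟨g, hg⟩) x = cj g x := fun x hx =>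
    extAut_coe _ ⟨x, hx⟩
  exact ⟨fun h' => mem_of_congr (fixP_le_opStab _ p P) h' fun x hx => (he x hx).symm,
    fun h' => mem_of_congr (fixP_le_opStab _ p P) h' he⟩

open scoped commutatorElement in
theorem quad_iff {G : Type*} [Group G] {P : Subgroup G} {g : G}
    (hg : g ∈ Subgroup.normalizer (P : Set G)) :
    ⁅⁅P, Subgroup.zpowers g⁆, Subgroup.zpowers g⁆ = ⊥ ↔ H1.QuadOn P (cj g) := by
  rw [Subgroup.commutator_eq_bot_iff_le_centralizer, Subgroup.commutator_le]
  constructor
  · intro h a ha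
    have := h _ (P.inv_mem ha) g (Subgroup.mem_zpowers g) g (Subgroup.mem_zpowers g)
    rw [cj_apply g (_ * _), mul_inv_eq_iff_eq_mul]
    simpa [commutatorElement_def, mul_assoc] using this
  · intro h a ha
    have h1 : ∀ b ∈ P, ⁅b, g⁆ ∈ Subgroup.centralizer (Subgroup.zpowers g : Set G) := by
      intro b hb
      have := h _ (P.inv_mem hb)
      rw [cj_apply g (_ * _), mul_inv_eq_iff_eq_mul] at this
      rintro _ ⟨k, rfl⟩
      refine (Commute.zpow_left (a := g) ?_ k).eq
      simpa [Commute, SemiconjBy, commutatorElement_def, mul_assoc] using this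
    let K : Subgroup G :=
      { carrier := {c | c ∈ Subgroup.zpowers g ∧
          ∀ b ∈ P, ⁅b, c⁆ ∈ Subgroup.centralizer (Subgroup.zpowers g : Set G)}
        one_mem' := ⟨one_mem _, fun b _ => by simp⟩
        mul_mem' := by
          rintro c d ⟨hc, hc'⟩ ⟨hd, hd'⟩
          refine ⟨mul_mem hc hd, fun b hb => ?_⟩
          have e : ⁅b, c * d⁆ = ⁅b, c⁆ * (c * ⁅b, d⁆ * c⁻¹) := by
            simp only [commutatorElement_def]; group
          rw [e, hd' b hb c hc, mul_inv_cancel_right]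
          exact mul_mem (hc' b hb) (hd' b hb)
        inv_mem' := by
          rintro c ⟨hc, hc'⟩
          refine ⟨inv_mem hc, fun b hb => ?_⟩
          have e : ⁅b, c⁻¹⁆ = c⁻¹ * ⁅b, c⁆⁻¹ * c := by
            simp only [commutatorElement_def]; group
          rw [e, (inv_mem (hc' b hb) : ⁅b, c⁆⁻¹ ∈ _) c⁻¹ (inv_mem hc), inv_mul_cancel_right]
          exact inv_mem (hc' b hb) }
    intro c hc
    have : Subgroup.zpowers g ≤ K := (Subgroup.zpowers_le).2 ⟨Subgroup.mem_zpowers g, h1⟩
    exact (this hc).2 a ha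

/-- Let p be an odd prime, G a finite group and P a Sylow p-subgroup. Call a fusion system F p-stable when, for every fully normalized subgroup Q and every χ ∈ Aut_F(Q) acting quadratically on Q (that is, χ fixes a⁻¹χ(a) for every a ∈ Q; equivalently χ(a⁻¹)·a·χ(a⁻¹)·χ(χ(a)) = 1), χ lies in O_p(Aut_F(Q)). Then G is p-stable in the normalizer form (for every p-subgroup Q and x ∈ N_G(Q) with [Q, x, x] = 1, the image of x lies in O_p(N_G(Q)/C_G(Q))) if and only if the fusion system of G on P is p-stable. -/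
theorem result {Ω : Type*} [Group Ω] [Finite Ω] {p : ℕ} [Fact p.Prime] (hp : p ≠ 2) (P : Sylow p Ω) : Cfsg.IsNormalizerPStable p Ω ↔ (∀ Q : Subgroup Ω, (Cfsg.groupFusionSystem (P : Subgroup Ω)).IsFullyNormalized Q → ∀ χ : MulAut ↥Q, χ ∈ (Cfsg.groupFusionSystem (P : Subgroup Ω)).autGroup Q → (∀ a : ↥Q, (χ a⁻¹) * a * (χ a⁻¹) * (χ (χ a)) = 1) → χ ∈ ((Cfsg.pCore p ↥((Cfsg.groupFusionSystem (P : Subgroup Ω)).autGroup Q)).map ((Cfsg.groupFusionSystem (P : Subgroup Ω)).autGroup Q).subtype : Subgroup (MulAut ↥Q))) := by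
  rw [← H1.pStable_iff]
  constructor
  · intro h Q σ hQ hσ hq
    obtain ⟨h1, h2, g, h3⟩ := isMap_group.1 hσ.isMap
    have hg : g ∈ Subgroup.normalizer (Q : Set Ω) :=
      L.mem_normalizer_of_conj_mem fun x hx => h3 x hx ▸ hσ.mem hx
    have h4 := (key h1 g hg).1 (h Q (P.isPGroup'.to_le h1) g hg ((quad_iff hg).2
      (hq.congr (fun a ha => hσ.mem ha) fun a ha => (h3 a ha).symm)))
    exact mem_of_congr (fixP_le_opStab _ p Q) h4 h3
  · intro h Q hQ g hg hq
    obtain ⟨c, -, hc⟩ := (L.isSylowIn_top P).exists_conj_mem hQ le_top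
    have h1 : (groupFusionSystem (⊤ : Subgroup Ω)).Iso Q (img (cj c) Q) (cj c) :=
      (isMap_group_cj le_top fun _ _ => trivial).iso
    have h2 : img (cj c) Q ≤ P := img_le_iff.2 hc
    have h3 : (groupFusionSystem (⊤ : Subgroup Ω)).Iso Q Q (cj g) := iso_cj _ le_top trivial hg
    have h4 := h1.conj h3
    have h5 : (groupFusionSystem (P : Subgroup Ω)).Iso (img (cj c) Q) (img (cj c) Q)
        (cj c * cj g * (cj c)⁻¹) := by
      refine ⟨?_, h4.mem_iff⟩
      rw [← map_inv, ← map_mul, ← map_mul] at h4 ⊢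
      exact isMap_group_cj h2 fun x hx => h2 (h4.mem hx)
    have h6 := h.mem h5 (((quad_iff hg).1 hq).conj (fun a ha => h3.mem ha) h1.homOn)
    have h7 : (groupFusionSystem (P : Subgroup Ω)).opStab p (img (cj c) Q) =
        (groupFusionSystem (⊤ : Subgroup Ω)).opStab p (img (cj c) Q) := by
      rw [opStab, opStab, ← autGroup_eq h2, ← autGroup_eq le_top]
    rw [h7, ← h1.conjP_opStab, conj_mem_conjP] at h6
    exact (key le_top g hg).2 h6

end Cfsg.Agent.S5246
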