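import Cfsg.Statements.S5251
import Cfsg.Agent.H9.Core

set_option autoImplicit false
open Cfsg

namespace Cfsg.Agent.S5251

/-- Let F be a saturated fusion system over a finite p-group S, E a normal subsystem of F over T, and P an F-centric subgroup of S such that P ∩ T is not E-centric. Then some F-conjugate P* of P satisfies Out_S(P*) ∩ O_p(Out_F(P*)) ≠ 1: there is an element of N_S(P*) outside P* whose conjugation action on P* lies in O_p(Aut_F(P*)). In particular P is not both centric and radical in F. -/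
theorem result {Ω : Type*} [Group Ω] {S : Subgroup Ω} [Finite S] (p : ℕ) [Fact p.Prime] (hS : IsPGroup p S) (F : Cfsg.FusionSystem S) (hF : F.IsSaturated p) {T : Subgroup Ω} (E : Cfsg.FusionSystem T) (hE : E.IsNormalIn F p) (P : Subgroup Ω) (hP : F.IsCentric P) (hPT : ¬ E.IsCentric (P ⊓ T)) : (∃ φ ∈ F.Hom P, ∃ x ∈ S ⊓ Subgroup.normalizer (φ.range : Set Ω), x ∉ φ.range ∧ ∃ α ∈ ((Cfsg.pCore p ↥(F.autGroup φ.range)).map (F.autGroup φ.range).subtype : Subgroup (MulAut ↥φ.range)), ∀ y : ↥φ.range, ((α y : ↥φ.range) : Ω) = x * (y : Ω) * x⁻¹) ∧ ¬ F.IsRadical p P := by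
  rw [hE.inv.isCentric_iff] at hPT
  refine ⟨?_, fun hr => hPT (hE.sc.tc_of_centric_radical hF hS hP hr)⟩
  obtain ⟨τ, h1, h2⟩ := hE.sc.exists_not_pStar_le hF hS hP.le hPT
  obtain ⟨x, hx, hx'⟩ := SetLike.not_le_iff_exists.1 h2
  refine ⟨_, h1.toHom_mem, x, ?_⟩
  rw [← Cfsg.Fus.img_eq_range h1.homOn.toHom (f := τ) fun _ => rfl]
  obtain ⟨α, h3, h4⟩ := Cfsg.Fus.mem_liftAut'.1 (Cfsg.FusionSystem.mem_pStar.1 hx.1).2
  exact ⟨F.pStar_le_normalizerIn p _ hx.1, hx', α, h3, fun y => (h4 y).symm⟩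

end Cfsg.Agent.S5251
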