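import Cfsg.Statements.S5271
import Cfsg.Agent.H7.WEmb

set_option autoImplicit false
open Cfsg

namespace Cfsg.Agent.S5271

open Cfsg.Fus Cfsg.FusionSystem

/-- A nilpotency criterion for fusion systems. Let F be a saturated fusion system over a finite p-group S of order at least p². Call a subgroup Q of S weakly embedded in F when there is a subgroup P of S strongly closed in F such that both the product QP and the intersection Q ∩ P are strongly closed in F. Then F is the inner fusion system of S if and only if there is a subgroup D of S with 1 < D < S such that every subgroup of S of the same order as D is weakly embedded in F and, for every fully normalized subgroup H of S of that order, the normalizer fusion system of H in F is the inner fusion system of N_S(H). -/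
theorem result {Ω : Type*} [Group Ω] {S : Subgroup Ω} [Finite S] (p : ℕ) [Fact p.Prime] (hS : IsPGroup p ↥S) (F : Cfsg.FusionSystem S) (hF : F.IsSaturated p) (hcard : p ^ 2 ≤ Nat.card S) : (∀ P : Subgroup Ω, F.Hom P = (Cfsg.innerFusionSystem S).Hom P) ↔ ∃ D : Subgroup Ω, ⊥ < D ∧ D < S ∧ (∀ Q : Subgroup Ω, Q ≤ S → Nat.card ↥Q = Nat.card ↥D → ∃ P : Subgroup Ω, F.StronglyClosed P ∧ F.StronglyClosed (Q ⊔ P) ∧ F.StronglyClosed (Q ⊓ P)) ∧ (∀ H : Subgroup Ω, F.IsFullyNormalized H → Nat.card ↥H = Nat.card ↥D → ∀ N : Cfsg.FusionSystem (Cfsg.FusionSystem.normalizerIn S H), F.IsNormalizerSystem H N → ∀ P : Subgroup Ω, N.Hom P = (Cfsg.innerFusionSystem (Cfsg.FusionSystem.normalizerIn S H)).Hom P) := by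
  have hp : p.Prime := Fact.out
  obtain ⟨n, hn⟩ := hS.exists_card_eq
  have hn2 : 2 ≤ n := (Nat.pow_le_pow_iff_right hp.one_lt).1 (hn ▸ hcard)
  constructor
  · intro h
    obtain rfl : F = innerFusionSystem S := ext_hom h
    obtain ⟨m, rfl⟩ := Nat.exists_eq_add_of_le' hn2
    obtain ⟨D, -, d1, d2⟩ := exists_between7 (k := m + 1) hS bot_le
      (by simpa using Nat.one_le_pow _ _ hp.pos) (hn ▸ Nat.pow_le_pow_right hp.pos (by omega))
    have hlt : ∀ Q ≤ S, Nat.card Q = Nat.card D → Q < S := fun Q hQ e => lt_of_le_of_ne hQ fun e' => by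
      rw [e', hn, d2, Nat.pow_right_inj hp.one_lt] at e
      omega
    refine ⟨D, bot_lt_iff_ne_bot.2 fun e => ?_, hlt D d1 rfl, fun Q hQ e => ⟨⊥,
      stronglyClosed_bot _, ?_, by simpa using stronglyClosed_bot _⟩, fun H hH _ N hN P => ?_⟩
    · rw [e, Subgroup.card_bot] at d2
      exact (Nat.one_lt_pow m.succ_ne_zero hp.one_lt).ne d2
    · have := finite_of_le hQ
      have h1 := lt_normalizerIn hS (hlt Q hQ e)
      obtain ⟨l, hl⟩ := (isPGroup_of_le hS (normalizerIn_le S Q)).exists_card_eq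
      have h2 := card_lt_of_lt_of_finite h1
      rw [e, d2, hl, Nat.pow_lt_pow_iff_right hp.one_lt] at h2
      have h3 := eq_of_le_of_card_ge7 le_rfl (normalizerIn_le S Q)
        (by rw [hn, hl]; exact Nat.pow_le_pow_right hp.pos h2)
      rw [sup_bot_eq]
      refine stronglyClosed_iff.2 ⟨hQ, fun R f hf x hx hxQ => ?_⟩
      obtain ⟨-, g, hg, e⟩ := isMap_inner.1 hf
      rw [e x hx]
      exact conj_mem_of_mem_normalizer (h3.ge hg).2 hxQ
    · refine hom_eq_iff.2 fun f => ⟨fun hf => ?_, le_iff_isMap.1 (inner_le N) P f⟩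
      obtain ⟨h1, τ, t1, t2, t3⟩ := nMap_iff_perm.1 ((isNormalizerSystem_iff.1 hN P f).1 hf)
      obtain ⟨-, g, hg, e⟩ := isMap_inner.1 t1
      have := finite_of_le hH.le
      refine isMap_inner.2 ⟨h1, g, ⟨hg, mem_normalizer_of_finite fun x hx => ?_⟩,
        fun x hx => by rw [← t2 x hx, e x (Subgroup.mem_sup_left hx)]⟩
      rw [← e x (Subgroup.mem_sup_right hx)]
      exact (t3 x).2 hx
  · rintro ⟨D, d1, d2, h1, h2⟩
    have := finite_of_le d2.le
    obtain ⟨k, hk⟩ := (isPGroup_of_le hS d2.le).exists_card_eq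
    have hw : F.WE p k := ⟨fun Q hQ e => h1 Q hQ (e.trans hk.symm), fun H X ρ a a' b c d => by
      have hX : X ≤ normalizerIn S H := le_inf c.iso.le_left a'
      obtain ⟨τ, t1, t2⟩ := hF.exists_map_normalizer hS (a.trans c.iso.le_left)
      have t3 := (t1.mono hX).iso
      have t4 := t3.restrict a
      have c' := c.conj t3
      have t5 : img τ X ≤ normalizerIn S (img τ H) :=
        img_le_iff.2 fun x hx => t1.mem_normalizerIn (a.trans hX) (hX hx) (a' hx)
      have t6 := (hom_eq_iff.1 (h2 _ t2 (t4.card_eq.symm.trans (b.trans hk.symm)) _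
        (F.isNormalizerSystem_normSys9 _ t2.le) (img τ X)) ⇑(τ * ρ * τ⁻¹)).1
        ((isNormalizerSystem_iff.1 (F.isNormalizerSystem_normSys9 _ t2.le) _ _).2 (nMap_iff_perm.2
          ⟨t5, _, by rw [sup_eq_left.2 (img_mono _ a)]; exact c'.iso.isMap, fun _ _ => rfl,
            (t4.conj ((c.iso.isMap.mono a).iso_of_setStab d)).mem_setStab⟩))
      obtain ⟨-, g, hg, e⟩ := isMap_inner.1 t6
      obtain ⟨m, hm, hm'⟩ := c'.2
      have t7 := mem_fixP_of_mem_innS_of_coprime hS hm hm'
        (mem_innS_of_setStab c'.iso.mem_setStab hg.1 e)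
      intro x hx
      simpa using t7 _ (t3.mem hx)⟩
    rw [H8.eq_inner_of_hyp_eq_bot hF hS (WE.hyp_eq_bot _ rfl hw hF hS (hk ▸ card_lt_of_lt_of_finite d2)
      (Nat.pos_of_ne_zero fun e => d1.ne' (Subgroup.card_eq_one.1 (by rw [hk, e, pow_zero]))))]
    exact fun _ => rfl

end Cfsg.Agent.S5271
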