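import Cfsg.Statements.S5276
import Cfsg.Agent.H8.Tate

set_option autoImplicit false
open Cfsg

namespace Cfsg.Agent.S5276

/-- Let p be a prime and F a saturated fusion system over a finite p-group S. Then F is the inner fusion system of S if and only if the normalizer fusion system of S itself in F is the inner fusion system (equivalently, Aut_F(S) is induced by S) and the Frattini subgroup Φ(S) is strongly closed in F. -/
theorem result {Ω : Type*} [Group Ω] {S : Subgroup Ω} [Finite S] (p : ℕ) [Fact p.Prime] (hS : IsPGroup p ↥S) (F : Cfsg.FusionSystem S) (hF : F.IsSaturated p) : (∀ P : Subgroup Ω, F.Hom P = (Cfsg.innerFusionSystem S).Hom P) ↔ (∀ N : Cfsg.FusionSystem (Cfsg.FusionSystem.normalizerIn S S), F.IsNormalizerSystem S N → ∀ P : Subgroup Ω, N.Hom P = (Cfsg.innerFusionSystem (Cfsg.FusionSystem.normalizerIn S S)).Hom P) ∧ F.StronglyClosed ((frattini ↥S).map S.subtype) := by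
  have hSS : FusionSystem.normalizerIn S S = S :=
    le_antisymm (Fus.normalizerIn_le S S) (Fus.le_normalizerIn le_rfl)
  constructor
  · intro h
    obtain rfl := FusionSystem.ext_hom h
    refine ⟨fun N hN P => FusionSystem.hom_eq_iff.2 fun f => ⟨fun hf => ?_, fun hf =>
      FusionSystem.IsSubsystemOf.isMap (FusionSystem.inner_le N) hf⟩,
      FusionSystem.stronglyClosed_iff.2 ⟨Subgroup.map_subtype_le _, fun R f hf x hx hxP => ?_⟩⟩
    · obtain ⟨-, g, hg, h1⟩ := FusionSystem.isMap_inner.1 (hN.isSubsystemOf.isMap hf)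
      exact FusionSystem.isMap_inner.2 ⟨hf.le, g, hSS.ge hg, h1⟩
    · obtain ⟨-, g, hg, h1⟩ := FusionSystem.isMap_inner.1 hf
      obtain ⟨y, hy, rfl⟩ := hxP
      rw [h1 _ hx]
      exact ⟨_, (inferInstance : (frattini S).Normal).conj_mem y hy ⟨g, hg⟩, rfl⟩
  · rintro ⟨h1, h2⟩ P
    rw [← H8.eq_inner_of_focal_le_frattini hF hS (H8.focal_le_of_stronglyClosed hF hS h2
      (H8.commutator_le_map_frattini hS) fun σ hσ x hx => ?_)]
    have h3 := h1 _ (F.isNormalizerSystem_normSys9 S le_rfl) S
    obtain ⟨-, g, hg, h4⟩ := FusionSystem.isMap_inner.1 ((FusionSystem.hom_eq_iff.1 h3 σ).1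
      (FusionSystem.isMap_normSys9.2 ⟨hSS.ge, σ, by rw [sup_idem]; exact hσ.isMap, fun _ _ => rfl,
        hσ.img_eq⟩))
    rw [h4 x hx]
    exact H8.commutator_le_map_frattini hS (Fus.inv_mul_conj_mem_commutator hg.1 hx)

end Cfsg.Agent.S5276
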