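import Cfsg.Statements.S5284
import Cfsg.Agent.H8.SSAb

set_option autoImplicit false
open Cfsg

namespace Cfsg.Agent.S5284

/-- Let S be a finite abelian p-group. Every saturated fusion system over S is supersoluble (S has a chain of F-strongly closed subgroups from 1 to S with cyclic steps) if and only if the invariants of S are pairwise distinct, that is, S is not isomorphic to a direct product (Z/p^n × Z/p^n) × H with n ≥ 1. -/
theorem result {Ω : Type*} [Group Ω] {S : Subgroup Ω} [Finite S] (p : ℕ) [Fact p.Prime] (hS : IsPGroup p ↥S) (hab : IsMulCommutative ↥S) : (∀ F : Cfsg.FusionSystem S, F.IsSaturated p → (∃ (m : ℕ) (c : Fin (m + 1) → Subgroup Ω), c 0 = ⊥ ∧ c (Fin.last m) = S ∧ (∀ i : Fin (m + 1), F.StronglyClosed (c i)) ∧ ∀ i : Fin m, c i.castSucc ≤ c i.succ ∧ ∃ x ∈ S, c i.succ = c i.castSucc ⊔ Subgroup.zpowers x)) ↔ ¬ ∃ (n : ℕ) (H : Type) (_ : CommGroup H), 0 < n ∧ Nonempty (↥S ≃* (Multiplicative (ZMod (p ^ n)) × Multiplicative (ZMod (p ^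 n))) × H) := by
  have hc : ∀ x y : S, x * y = y * x := hab.1.1
  refine (H8.forall_ssTo_iff hS).trans ⟨?_, fun h => ⟨fun F hF => ?_, fun H hH => ?_⟩⟩
  · rintro ⟨-, h⟩ ⟨n, H, _, hn, ⟨e⟩⟩
    haveI : Finite H := Finite.of_surjective _ (Prod.snd_surjective.comp e.surjective)
    exact H8.not_pc_zmod H hn (H8.PC.of_equiv h e)
  · exact F.stronglyClosed_top.isNormal_of_comm hF hS (le_bot_iff.1 (Subgroup.commutator_le.2
      fun a ha b hb => Subgroup.mem_bot.2 (commutatorElement_eq_one_iff_mul_comm.2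
        (congrArg Subtype.val (hc ⟨a, ha⟩ ⟨b, hb⟩)))))
  · obtain ⟨ι, _, a, ha, ⟨e⟩⟩ := (H8.exists_distinct_or hS hc).resolve_right h
    exact (H8.pFlag_of_distinct hS ha e H).comm_of_coprime hS hH

end Cfsg.Agent.S5284
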