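import Cfsg.Statements.S5286
import Cfsg.Agent.H9.Rel
import Cfsg.Agent.H9.Marks
import Cfsg.Agent.H9.GraphGroup

set_option autoImplicit false
universe u
open Cfsg

namespace Cfsg.Agent.S5286

open Cfsg.Agent.H9 Cfsg.Agent.H9.Marks Cfsg.Agent.H9.GraphGroup

theorem exists_perm {L S : Type*} [Group L] [Group S] [Finite L] [Finite S] (j₁ j₂ : L →* S)
    (h₁ : Function.Injective j₁) (h₂ : Function.Injective j₂) :
    ∃ t : Equiv.Perm S, ∀ x : L, t * MulAction.toPermHom S S (j₁ x) = MulAction.toPermHom S S (j₂ x) * t := by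
  have key : ∀ (j : L →* S), Function.Injective j → ∀ H : Subgroup L,
      @fixIn L _ S (MulAction.compHom S j) H Set.univ = {_s : S | H = ⊥} := by
    intro j hj H
    ext s
    simp only [fixIn, Set.mem_univ, true_and, Set.mem_ofPred_eq, Subgroup.eq_bot_iff_forall]
    refine forall₂_congr fun h _ => ?_
    change j h * s = s ↔ _
    rw [mul_eq_right, map_eq_one_iff _ hj]
  obtain ⟨e, he⟩ := @exists_equiv_of_marks L _ _ S S (MulAction.compHom S j₁) (MulAction.compHom S j₂) _ _
    (fun H => by unfold mark; rw [key j₁ h₁, key j₂ h₂])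
  exact ⟨e, fun x => Equiv.ext fun s => he x s⟩

theorem main {Ω : Type u} [Group Ω] {S : Subgroup Ω} [Finite S] (F : Cfsg.FusionSystem S)
    {A : Type u} [Group A] (ρ : S →* A) (hρ : Function.Injective ρ)
    (hA : ∀ (P : Subgroup Ω) [Finite P] (j₁ j₂ : P →* S), Function.Injective j₁ → Function.Injective j₂ →
      ∃ t : A, ∀ x : P, t * ρ (j₁ x) = ρ (j₂ x) * t) :
    ∃ (G : Type u) (_ : Group G) (ι : ↥S →* G), F.IsRealizedBy ι ∧
      (∀ H : Subgroup G, Finite ↥H → ∃ g : G, ∀ h ∈ H, g * h * g⁻¹ ∈ ι.range) ∧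
      ∃ N : Subgroup G, N.Normal ∧ IsFreeGroup ↥N ∧ N.index ∣ Nat.card A := by
  classical
  let I := Σ P : Subgroup Ω, F.Hom P
  let inc : ∀ i : I, i.1 →* S := fun i => Subgroup.inclusion (F.le_of_mem i.2.2).1
  let ph : ∀ i : I, i.1 →* S := fun i => i.2.1.codRestrict S (F.le_of_mem i.2.2).2
  have ht : ∀ i : I, ∃ t : A, ∀ x : i.1, t * ρ (inc i x) = ρ (ph i x) * t := by
    intro i
    have : Finite i.1 := Finite.of_injective _ (Subgroup.inclusion_injective (F.le_of_mem i.2.2).1)
    exact hA i.1 (inc i) (ph i) (Subgroup.inclusion_injective _)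
      (fun a b h => F.injective_of_mem i.2.2 (congrArg Subtype.val h))
  choose t ht using ht
  let Q : I → Subgroup A := fun i => (ρ.comp (ph i)).range
  let E := Σ i : I, A ⧸ Q i
  let V := A ⧸ ρ.range
  obtain ⟨src, hsrc⟩ : ∃ src : E → V, ∀ (i : I) (a : A), src ⟨i, (a : A ⧸ Q i)⟩ = (a : V) :=
    ⟨fun e => Subgroup.quotientMapOfLE (s := Q e.1) (by rintro _ ⟨x, rfl⟩; exact ⟨_, rfl⟩) e.2, fun _ _ => rfl⟩
  obtain ⟨tgt, htgt⟩ : ∃ tgt : E → V, ∀ (i : I) (a : A), tgt ⟨i, (a : A ⧸ Q i)⟩ = ((a * t i : A) : V) := by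
    refine ⟨fun e => Quotient.liftOn' e.2 (fun a => ((a * t e.1 : A) : V)) ?_, fun _ _ => rfl⟩
    intro a b hab
    obtain ⟨x, hx⟩ := QuotientGroup.leftRel_apply.1 hab
    refine QuotientGroup.eq.2 ⟨inc e.1 x, ?_⟩
    have h1 := ht e.1 x
    simp only [MonoidHom.comp_apply] at hx
    rw [hx] at h1
    rw [mul_inv_rev, mul_assoc, ← mul_assoc a⁻¹, ← h1, inv_mul_cancel_left]
  have hs : ∀ (a : A) e, src (a • e) = a • src e := by
    rintro a ⟨i, q⟩
    obtain ⟨b, rfl⟩ := QuotientGroup.mk_surjective q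
    exact (hsrc i (a * b)).trans (by rw [hsrc]; rfl)
  have ht' : ∀ (a : A) e, tgt (a • e) = a • tgt e := by
    rintro a ⟨i, q⟩
    obtain ⟨b, rfl⟩ := QuotientGroup.mk_surjective q
    exact (htgt i (a * b)).trans (by rw [htgt, mul_assoc]; rfl)
  let v₀ : V := ((1 : A) : V)
  have hv₀ : ∀ a : A, a • v₀ = (a : V) := fun a => congrArg QuotientGroup.mk (mul_one a)
  let G := pathGroup hs ht' v₀
  have hι : ∀ s : S, (SemidirectProduct.inr.comp ρ) s ∈ G := by
    intro s
    refine ⟨[], rfl, ?_⟩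
    change v₀ = ρ s • v₀
    rw [hv₀]
    exact QuotientGroup.eq.2 ⟨s, by simp⟩
  let ι : S →* G := (SemidirectProduct.inr.comp ρ).codRestrict G hι
  -- relation lemma
  have hnil : ∀ a b : A, (a : V) = (b : V) →
      Rel F {z | ∃ x y : S, z = ((x : Ω), (y : Ω)) ∧ b * ρ x * b⁻¹ = a * ρ y * a⁻¹} := by
    intro a b hab
    obtain ⟨s, hs⟩ := QuotientGroup.eq.1 hab
    refine (rel_conj (F := F) s.2).mono ?_
    rintro _ ⟨x, y, rfl, h⟩
    refine ⟨x.2, ?_⟩
    have h1 : y = s * x * s⁻¹ := by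
      apply hρ
      rw [map_mul, map_mul, map_inv, hs]
      calc ρ y = a⁻¹ * (a * ρ y * a⁻¹) * a := by group
        _ = _ := by rw [← h]; group
    exact congrArg Subtype.val h1
  have hpath : ∀ (L : List (E × Bool)) (a b : A), IsPath src tgt (a : V) L (b : V) →
      Rel F {z | ∃ x y : S, z = ((x : Ω), (y : Ω)) ∧ b * ρ x * b⁻¹ = a * ρ y * a⁻¹ ∧
        ∀ e ∈ L, (a * ρ y * a⁻¹) • e.1 = e.1} := by
    intro L
    induction L with
    | nil =>
      intro a b h
      refine (hnil a b h).mono ?_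
      rintro _ ⟨x, y, rfl, h, -⟩
      exact ⟨x, y, rfl, h⟩
    | cons e L ih =>
      obtain ⟨⟨i, q⟩, ε⟩ := e
      obtain ⟨c, rfl⟩ := QuotientGroup.mk_surjective q
      intro a b h
      have hfix : ∀ z : A, z • (⟨i, (c : A ⧸ Q i)⟩ : E) = ⟨i, (c : A ⧸ Q i)⟩ →
          ∃ u : i.1, z = c * ρ (ph i u) * c⁻¹ ∧ z = (c * t i) * ρ (inc i u) * (c * t i)⁻¹ := by
        intro z hz
        have h1 : ((z * c : A) : A ⧸ Q i) = c := eq_of_heq (Sigma.mk.inj hz).2
        obtain ⟨u, hu⟩ := QuotientGroup.eq.1 h1.symm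
        simp only [MonoidHom.comp_apply] at hu
        refine ⟨u, by rw [hu]; group, ?_⟩
        rw [mul_assoc c, ht, hu]; group
      cases ε with
      | true =>
        have h1 : (c : V) = (a : V) := (hsrc i c).symm.trans h.1
        have h2 : IsPath src tgt ((c * t i : A) : V) L (b : V) := htgt i c ▸ h.2
        refine (((ih _ _ h2).comp (rel_of_mem i.2.2)).comp (hnil a c h1.symm)).mono ?_
        rintro _ ⟨x, y, rfl, hxy, hL⟩
        obtain ⟨u, hu, hu'⟩ := hfix _ (hL _ List.mem_cons_self)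
        refine ⟨ph i u, ⟨inc i u, ⟨x, inc i u, rfl, hxy.trans hu', fun e he => ?_⟩, u, rfl⟩, ph i u, y, rfl, hu.symm⟩
        rw [← hu']
        exact hL e (List.mem_cons_of_mem _ he)
      | false =>
        have h1 : ((c * t i : A) : V) = (a : V) := (htgt i c).symm.trans h.1
        have h2 : IsPath src tgt (c : V) L (b : V) := hsrc i c ▸ h.2
        refine (((ih _ _ h2).comp (rel_of_mem i.2.2).swap).comp (hnil a _ h1.symm)).mono ?_
        rintro _ ⟨x, y, rfl, hxy, hL⟩
        obtain ⟨u, hu, hu'⟩ := hfix _ (hL _ List.mem_cons_self)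
        refine ⟨inc i u, ⟨ph i u, ⟨x, ph i u, rfl, hxy.trans hu, fun e he => ?_⟩, u, rfl⟩, inc i u, y, rfl, hu'.symm⟩
        rw [← hu]
        exact hL e (List.mem_cons_of_mem _ he)
  refine ⟨G, inferInstance, ι, ⟨?_, fun P hP φ hφS => ⟨fun hφ => ?_, ?_⟩⟩, fun H hH => ?_,
    (SemidirectProduct.rightHom.comp G.subtype).ker, inferInstance, ?_, ?_⟩
  · intro a b h
    exact hρ (SemidirectProduct.inr_injective (congrArg Subtype.val h))
  · let i : I := ⟨P, φ, hφ⟩
    let e : E := ⟨i, ((1 : A) : A ⧸ Q i)⟩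
    refine ⟨⟨⟨FreeGroup.mk [(e, true)], t i⟩, [(e, true)], rfl, hsrc i 1, ?_⟩, fun x => ?_⟩
    · change tgt e = t i • v₀
      rw [hv₀, htgt, one_mul]
    · rw [eq_mul_inv_iff_mul_eq]
      apply Subtype.ext
      apply SemidirectProduct.ext
      · change 1 * act A E (ρ (ph i x)) (FreeGroup.mk [(e, true)]) = FreeGroup.mk [(e, true)] * act A E (t i) 1
        rw [map_one, one_mul, mul_one, act_mk]
        have : ρ (ph i x) • e = e := by
          refine congrArg (Sigma.mk i) ?_
          change ((ρ (ph i x) * 1 : A) : A ⧸ Q i) = (1 : A)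
          symm
          exact QuotientGroup.eq.2 ⟨x, by simp⟩
        simp [wsmul, this]
      · exact (ht i x).symm
  · rintro ⟨⟨g, hg⟩, h⟩
    have h1 := isPath_toWord hg
    rw [hv₀] at h1
    refine mem_of_rel ((hpath _ 1 g.right h1).mono ?_)
    rintro _ ⟨x, rfl⟩
    have h2 : SemidirectProduct.inr (ρ ⟨φ x, hφS x⟩) * g = g * SemidirectProduct.inr (ρ ⟨x, hP x.2⟩) :=
      eq_mul_inv_iff_mul_eq.1 (congrArg Subtype.val (h x))
    have h3 := congrArg SemidirectProduct.left h2
    have h4 := congrArg SemidirectProduct.right h2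
    simp only [SemidirectProduct.mul_left, SemidirectProduct.left_inr, SemidirectProduct.right_inr, one_mul,
      map_one, mul_one, SemidirectProduct.mul_right] at h3 h4
    refine ⟨⟨x, hP x.2⟩, ⟨φ x, hφS x⟩, rfl, by rw [← h4]; group, fun e he => ?_⟩
    have h5 := congrArg FreeGroup.toWord h3
    rw [toWord_act, wsmul] at h5
    have h6 := List.map_inj_left.1 (h5.trans (List.map_id _).symm) e he
    simpa using congrArg Prod.fst h6
  · obtain ⟨g, hg⟩ := exists_conj_left_eq_one (fun v => by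
      obtain ⟨a, rfl⟩ := QuotientGroup.mk_surjective v
      exact ⟨a, hv₀ a⟩) H
    refine ⟨g⁻¹, fun h hh => ?_⟩
    rw [inv_inv]
    have h1 := hg h hh
    have h2 := isPath_toWord (g⁻¹ * h * g).2
    rw [h1, hv₀] at h2
    obtain ⟨s, hs⟩ := QuotientGroup.eq.1 h2
    refine ⟨s, Subtype.ext (SemidirectProduct.ext h1.symm ?_)⟩
    rw [inv_one, one_mul] at hs
    exact hs
  · let f : (SemidirectProduct.rightHom.comp G.subtype).ker →* FreeGroup E :=
      { toFun := fun g => g.1.1.left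
        map_one' := rfl
        map_mul' := fun g h => by
          have : g.1.1.right = 1 := g.2
          simp [this] }
    have hf : Function.Injective f := by
      intro g h hgh
      have h1 : g.1.1.right = 1 := g.2
      have h2 : h.1.1.right = 1 := h.2
      exact Subtype.ext (Subtype.ext (SemidirectProduct.ext hgh (h1.trans h2.symm)))
    exact IsFreeGroup.ofMulEquiv (MonoidHom.ofInjective hf).symm
  · rw [Subgroup.index_ker]
    exact Subgroup.card_subgroup_dvd_card _

/-- Every fusion system F over a finite p-group S, saturated or not, is realized by a possibly infinite group: there are a group G and an injective homomorphism ι of S into G such that the maps of F are exactly the conjugations by elements of G between subgroups of ι(S), every finite subgroup of G is conjugate to a subgroup of ι(S), and G has a free normal subgroup whose index divides (#S)!. -/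
theorem result {Ω : Type u} [Group Ω] {S : Subgroup Ω} [Finite S] (p : ℕ) [Fact p.Prime] (hS : IsPGroup p ↥S) (F : Cfsg.FusionSystem S) : ∃ (G : Type u) (_ : Group G) (ι : ↥S →* G), F.IsRealizedBy ι ∧ (∀ H : Subgroup G, Finite ↥H → ∃ g : G, ∀ h ∈ H, g * h * g⁻¹ ∈ ι.range) ∧ ∃ N : Subgroup G, N.Normal ∧ IsFreeGroup ↥N ∧ N.index ∣ (Nat.card ↥S).factorial := by
  rw [← Nat.card_perm]
  exact main F (MulAction.toPermHom S S) MulAction.toPerm_injective fun P _ j₁ j₂ h₁ h₂ => exists_perm j₁ j₂ h₁ h₂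

end Cfsg.Agent.S5286
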