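import Cfsg.Statements.S5291
import Cfsg.Agent.H9.Core

set_option autoImplicit false
open Cfsg

namespace Cfsg.Agent.S5291

/-- Let F be a saturated fusion system over a finite p-group S and E a weakly normal subsystem of F over a subgroup T. Suppose a subgroup R of T is normal in E (E = N_E(R)), and let R* be the subgroup of T generated by the images of R under all maps of F with source R. Then R* is normal in F (F = N_F(R*)). -/
theorem result {Ω : Type*} [Group Ω] {S : Subgroup Ω} [Finite S] (p : ℕ) [Fact p.Prime] (hS : IsPGroup p S)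
    (F : Cfsg.FusionSystem S) (hF : F.IsSaturated p)
    {T : Subgroup Ω} (E : Cfsg.FusionSystem T) (hE : E.IsWeaklyNormalIn F p)
    (R : Subgroup Ω) (hR : E.IsNormal R) :
    F.IsNormal (Subgroup.closure {x : Ω | ∃ φ ∈ F.Hom R, ∃ r : R, x = φ r}) := by
  convert hE.isNormal_closure hS hR using 1
  refine le_antisymm ((Subgroup.closure_le _).2 ?_) (sSup_le ?_)
  · rintro _ ⟨φ, hφ, r, rfl⟩
    obtain ⟨σ, h1, h2⟩ := Cfsg.FusionSystem.exists_perm_of_mem hφ
    rw [h2]
    exact (le_sSup (s := {U | ∃ σ : Equiv.Perm Ω, F.IsMap R σ ∧ Cfsg.Fus.img σ R = U}) ⟨σ, h1, rfl⟩)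
      (Cfsg.Fus.mem_img_of_mem σ r.2)
  · rintro _ ⟨σ, hσ, rfl⟩
    exact Cfsg.Fus.img_le_iff.2 fun x hx => Subgroup.subset_closure ⟨_, hσ.toHom_mem, ⟨x, hx⟩, rfl⟩

end Cfsg.Agent.S5291
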