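import Cfsg.Statements.S5295
import Cfsg.Agent.H1.CenterFactor
import Cfsg.Agent.H2.Glaub2

set_option autoImplicit false
universe u
open Cfsg

namespace Cfsg.Agent.S5295

/-- Let F be a saturated fusion system over a finite p-group S with p odd. Then the centre Z(F) of F is a direct factor of Z(S): there is a subgroup K of Z(S) with Z(F) ∩ K = 1 and Z(F)K = Z(S). (At the prime 2 this can fail.) -/
theorem result {Ω : Type u} [Group Ω] {S : Subgroup Ω} [Finite S] (p : ℕ) [Fact p.Prime] (hp : p ≠ 2) (hS : IsPGroup p S)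
    (F : Cfsg.FusionSystem S) (hF : F.IsSaturated p) :
    ∃ K : Subgroup Ω, K ≤ (S ⊓ Subgroup.centralizer (S : Set Ω)) ∧ F.center ⊓ K = ⊥ ∧ F.center ⊔ K = (S ⊓ Subgroup.centralizer (S : Set Ω)) := by
  open Cfsg.FusionSystem Cfsg.Fus in
  have hn : S ≤ Subgroup.normalizer ((Cfsg.thompsonSubgroupAOf S : Subgroup Ω) : Set Ω) :=
    Subgroup.le_normalizer.trans (H2.normalizer_le_normalizer_thompsonA S)
  have hJ := H2.thompsonA_le S
  have hN := F.isNormalizerSystem_normSys9 _ hJ
  set N := F.normSys9 _ hJ
  have hV := H2.center_normalizerSystem_le hn N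
  have hc : N.center = F.center :=
    le_antisymm (H2.isCentral_of_fix_thompsonA hF hS (Or.inl hp) hV
      fun σ hσ => H2.fix_center_normalizerSystem hN le_rfl (hV.trans (H2.center_le_thompsonA S))
        hσ).le_center (H2.center_le_center_normalizerSystem hF hS hJ hn hN)
  have e : Cfsg.FusionSystem.normalizerIn S (Cfsg.thompsonSubgroupAOf S) = S :=
    le_antisymm inf_le_left (le_inf le_rfl hn)
  haveI : Finite (Cfsg.FusionSystem.normalizerIn S (Cfsg.thompsonSubgroupAOf S)) := by
    rw [e]; infer_instance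
  have := H1.exists_compl_center
    (hN.isSaturated hF hS (F.isFullyNormalized_of_le_normalizer hJ hn))
    (by rw [e]; exact hS) (hN.isNormal hJ) (by rw [e]; exact H2.center_le_thompsonA S)
  rw [hc, e] at this
  exact this

end Cfsg.Agent.S5295
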