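import Cfsg.Statements.S5297
import Cfsg.Agent.H7.Crit

set_option autoImplicit false
universe u
open Cfsg

namespace Cfsg.Agent.S5297

open Cfsg.Fus Cfsg.FusionSystem

/-- Let F be a saturated fusion system over a finite p-group S. If every map of F between cyclic subgroups of the hyperfocal subgroup of F of order p or 4 is a map of the normalizer system of S (it extends to a map of F defined on all of S), then S is normal in F. -/
theorem result {Ω : Type u} [Group Ω] {S : Subgroup Ω} [Finite S] (p : ℕ) [Fact p.Prime] (hS : IsPGroup p S)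
    (F : Cfsg.FusionSystem S) (hF : F.IsSaturated p)
    (h : ∀ A B : Subgroup Ω, A ≤ (F.hyperfocalSubgroup p) → B ≤ (F.hyperfocalSubgroup p) → IsCyclic ↥A → (Nat.card ↥A = p ∨ Nat.card ↥A = 4) → IsCyclic ↥B → (Nat.card ↥B = p ∨ Nat.card ↥B = 4) →
      F.homSet A B ⊆ F.normalizerHom S A) :
    F.IsNormal S := by
  refine hF.isNormal_top hS fun R hR => hR.not_innS_le hF hS fun σ hσ =>
    hF.mem_opStab_of_small hS ((mem_stab hR.le).1 (F.innS_le_stab hR.le hσ))
      (fun x hx h1 τ hτ => ?_) fun x hx _ => ?_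
  · by_cases h0 : x = 1
    · exact ⟨1, F.iso_one le_rfl, by rw [h0, hτ.homOn.map_one]; rfl⟩
    have h2 := hτ.restrict (Subgroup.zpowers_le.2 hx.1)
    have h3 := zpowers_card_of_expo h0 h1
    obtain ⟨-, ρ, a1, a2, a3⟩ := nMap_iff_perm.1 ((mem_normalizerHom_iff_nMap fun _ => rfl).1
      (h _ _ (Subgroup.zpowers_le.2 hx.2) ((H8.stronglyClosed_hyp hF hS).le_of_iso h2
        (Subgroup.zpowers_le.2 hx.2)) inferInstance h3
        (by rw [h2.homOn.img_zpowers]; infer_instance) (h2.card_eq ▸ h3)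
        ⟨h2.isMap.toHom_mem, fun y => h2.mem y.2⟩))
    exact ⟨ρ, (a1.mono le_sup_right).iso_of_setStab a3, (a2 x (Subgroup.mem_zpowers x)).symm⟩
  · obtain ⟨g, a, -, b⟩ := mem_innS.1 hσ
    exact ⟨g, a, b x hx.1⟩

end Cfsg.Agent.S5297
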