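import Cfsg.Statements.S5298
import Cfsg.Agent.H7.Crit

set_option autoImplicit false
universe u
open Cfsg

namespace Cfsg.Agent.S5298

open Cfsg.Fus Cfsg.FusionSystem

/-- Let F be a saturated fusion system over a finite p-group S. If every map of F between cyclic subgroups of the hyperfocal subgroup of F of order p or 4 is conjugation by an element of S, then F is the inner fusion system of S. -/
theorem result {Ω : Type u} [Group Ω] {S : Subgroup Ω} [Finite S] (p : ℕ) [Fact p.Prime] (hS : IsPGroup p S)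
    (F : Cfsg.FusionSystem S) (hF : F.IsSaturated p)
    (h : ∀ A B : Subgroup Ω, A ≤ (F.hyperfocalSubgroup p) → B ≤ (F.hyperfocalSubgroup p) → IsCyclic ↥A → (Nat.card ↥A = p ∨ Nat.card ↥A = 4) → IsCyclic ↥B → (Nat.card ↥B = p ∨ Nat.card ↥B = 4) →
      F.homSet A B ⊆ (Cfsg.innerFusionSystem S).Hom A) :
    ∀ P : Subgroup Ω, F.Hom P = (Cfsg.innerFusionSystem S).Hom P := by
  have key : ∀ P, ∀ x ∈ P ⊓ F.hyperfocalSubgroup p, x ^ expo p = 1 → ∀ τ, F.Iso P P τ →
      ∃ g ∈ S, τ x = g * x * g⁻¹ := fun P x hx h1 τ hτ => by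
    by_cases h0 : x = 1
    · exact ⟨1, S.one_mem, by rw [h0, hτ.homOn.map_one]; simp⟩
    have h2 := hτ.restrict (Subgroup.zpowers_le.2 hx.1)
    have h3 := zpowers_card_of_expo h0 h1
    obtain ⟨-, g, a1, a2⟩ := isMap_inner.1 (isMap_of_mem
      (h _ _ (Subgroup.zpowers_le.2 hx.2) ((H8.stronglyClosed_hyp hF hS).le_of_iso h2
        (Subgroup.zpowers_le.2 hx.2)) inferInstance h3
        (by rw [h2.homOn.img_zpowers]; infer_instance) (h2.card_eq ▸ h3)
        ⟨h2.isMap.toHom_mem, fun y => h2.mem y.2⟩) fun _ => rfl)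
    exact ⟨g, a1, a2 x (Subgroup.mem_zpowers x)⟩
  intro P
  rw [hF.eq_inner_of_essential hS fun R hR => (F.isPMod_opStab p R).mono fun σ hσ => by
    have hσ' := (mem_stab (hF.frc_of_alperin hS hR).1.le).1 hσ
    refine hF.mem_opStab_of_small hS hσ' (fun x hx h1 τ hτ => ?_) fun x hx h1 => key R x hx h1 σ hσ'
    obtain ⟨g, a, b⟩ := key R x hx h1 τ hτ
    exact ⟨cj g, F.iso_cj le_rfl a (Subgroup.le_normalizer a), b⟩]

end Cfsg.Agent.S5298
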