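import Cfsg.Statements.S5300
import Cfsg.Agent.H7.Crit

set_option autoImplicit false
universe u
open Cfsg

namespace Cfsg.Agent.S5300

open Cfsg.Fus Cfsg.FusionSystem

/-- Let F be a saturated fusion system over a finite p-group S. If every cyclic subgroup of the focal subgroup of F of order p (of order 2 or 4 when p = 2) is normal in S, then S is normal in F. -/
theorem result {Ω : Type u} [Group Ω] {S : Subgroup Ω} [Finite S] (p : ℕ) [Fact p.Prime] (hS : IsPGroup p S)
    (F : Cfsg.FusionSystem S) (hF : F.IsSaturated p)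
    (hnorm : ∀ x ∈ F.focalSubgroup, (x ^ p = 1 ∨ (p = 2 ∧ x ^ 4 = 1)) → ∀ s ∈ S, s * x * s⁻¹ ∈ Subgroup.zpowers x) :
    F.IsNormal S := by
  refine hF.isNormal_top hS fun R hR => hR.not_innS_le hF hS fun σ hσ => ?_
  obtain ⟨D, h1, h2, h3, -, h5⟩ := hF.exists_crit hS hR.le
  have hDR : D ≤ R := h1.trans inf_le_left
  have hn : ∀ x ∈ D, ∀ s ∈ S, s * x * s⁻¹ ∈ Subgroup.zpowers x := fun x hx =>
    hnorm x (H8.hyp_le_focal F p (h1 hx).2) (by
      have := h3 x hx
      by_cases hp : p = 2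
      · exact Or.inr ⟨hp, by simpa [expo, hp] using this⟩
      · exact Or.inl (by simpa [expo, hp] using this))
  have hz : ∀ x ∈ D, x ^ p = 1 → ∀ s ∈ S, s * x = x * s := fun x hx h =>
    Subgroup.mem_centralizer_iff.1
      (mem_centralizer_of_normal_zpowers hS (hR.le (hDR hx)) h (hn x hx))
  let W : Subgroup Ω :=
    { carrier := {x | x ∈ D ∧ x ^ p = 1}
      one_mem' := ⟨D.one_mem, one_pow p⟩
      mul_mem' := fun {x y} a b => ⟨D.mul_mem a.1 b.1, by
        rw [Commute.mul_pow (hz y b.1 b.2 x (hR.le (hDR a.1))), a.2, b.2, one_mul]⟩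
      inv_mem' := fun a => ⟨D.inv_mem a.1, by rw [inv_pow, a.2, inv_one]⟩ }
  have hσ' := (mem_stab hR.le).1 (F.innS_le_stab hR.le hσ)
  obtain ⟨g, a, -, b⟩ := mem_innS.1 hσ
  refine h5.mem_opStab hσ' hS (n := 2) (C := fun i => match i with | 0 => ⊥ | 1 => W | _ => D)
    (fun i _ => ?_) rfl rfl (fun i _ => ?_) fun i hi => ?_
  · match i with
    | 0 => exact bot_le
    | 1 => exact fun x hx => hDR hx.1
    | _ + 2 => exact hDR
  · match i with
    | 0 =>
      intro τ hτ x hx
      rw [Subgroup.mem_bot.1 hx, hτ.homOn.map_one]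
      exact Subgroup.one_mem _
    | 1 =>
      intro τ hτ x hx
      exact ⟨h2 τ hτ x hx.1, by rw [← hτ.homOn.map_pow (hDR hx.1), hx.2, hτ.homOn.map_one]⟩
    | _ + 2 => exact h2
  · match i, hi with
    | 0, _ =>
      intro x hx
      rw [b x (hDR hx.1), hz x hx.1 hx.2 g a]
      exact Subgroup.mem_bot.2 (by group)
    | 1, _ =>
      intro x hx
      refine ⟨D.mul_mem (D.inv_mem hx) (h2 σ hσ' x hx), ?_⟩
      obtain ⟨k, hk⟩ := hn x hx g a
      obtain ⟨l, hl⟩ := expo_dvd_sq p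
      have c1 : Commute x⁻¹ (g * x * g⁻¹) := by
        rw [← hk]; exact ((Commute.refl x).zpow_right k).inv_left
      rw [b x (hDR hx), c1.mul_pow, conj_pow, hz _ (D.pow_mem hx p)
        (by rw [← pow_mul, hl, pow_mul, h3 x hx, one_pow]) g a]
      group

end Cfsg.Agent.S5300
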