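import Cfsg.Statements.S5301
import Cfsg.Agent.H7.More
import Cfsg.Agent.H1.Basic

set_option autoImplicit false
universe u
open Cfsg

namespace Cfsg.Agent.S5301

open Cfsg.Fus Cfsg.FusionSystem

/-- Let F be a saturated fusion system over a finite p-group S. If for every subgroup P of S that is fully normalized, centric and radical in F the automorphism group that F induces on P has a normal Sylow p-subgroup, then S is normal in F. -/
theorem result {Ω : Type u} [Group Ω] {S : Subgroup Ω} [Finite S] (p : ℕ) [Fact p.Prime] (hS : IsPGroup p S)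
    (F : Cfsg.FusionSystem S) (hF : F.IsSaturated p)
    (hcl : ∀ P : Subgroup Ω, F.IsFullyNormalized P → F.IsCentric P → F.IsRadical p P →
      ∃ R : Sylow p ↥(F.autGroup P), (R : Subgroup ↥(F.autGroup P)).Normal) :
    F.IsNormal S := by
  refine hF.isNormal_top hS fun R hR => hR.not_innS_le hF hS ?_
  obtain ⟨U, hU⟩ := hcl R hR.isFullyNormalized hR.isCentric (hR.isRadical hS)
  have := finite_of_le hR.le
  obtain ⟨-, V, hV⟩ := sylMod_liftAut_iff.1 ((hR.isFullyNormalized.isFullyAutomized hF hS).sylMod)
  obtain rfl : V = U := Subsingleton.elim (h := (Sylow.unique_of_normal U hU).instSubsingleton) _ _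
  refine (le_liftSub_iff (F.innS_le_stab hR.le)).2 ?_
  rw [H1.pCore_eq_of_normal_sylow V, hV]
  exact map_resLift.le

end Cfsg.Agent.S5301
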