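import Cfsg.Statements.S5319
import Cfsg.Agent.H4.L3Mat

set_option autoImplicit false
open Cfsg

namespace Cfsg.Agent.S5319

/-- Let q be an odd prime power and F a field with q² elements. Then the 2-fusion system of PSU(3,q) (realised as the special unitary group of the standard Hermitian form over F modulo its centre) on a Sylow 2-subgroup is simple. -/
theorem result {F : Type*} [Field F] [Fintype F] (q : ℕ) (hq : Fintype.card F = q ^ 2) (hodd : q % 2 = 1) (S : Sylow 2 (Cfsg.PSU 3 F q)) :
    (Cfsg.groupFusionSystem (S : Subgroup (Cfsg.PSU 3 F q))).IsSimple 2 := by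
  obtain ⟨σ, hσ⟩ := H4.exists_frob hq
  have h2 : (2 : F) ≠ 0 := H4.two_ne_zero_of_odd_card (by rw [hq, pow_two, Nat.mul_mod, hodd])
  have h : H4.U3 (Cfsg.SU 3 F q) σ True := by
    refine ⟨fun g => ?_, h2, ?_, ?_⟩
    · have key : ∀ u v : Fin 3 → F,
          hermForm 3 F q ((g : Matrix (Fin 3) (Fin 3) F).mulVec u) ((g : Matrix _ _ F).mulVec v) =
          u ⬝ᵥ (((g : Matrix (Fin 3) (Fin 3) F).transpose * (g : Matrix _ _ F).map σ).mulVec
            (σ ∘ v)) := by
        intro u v
        rw [← Matrix.mulVec_mulVec, Matrix.dotProduct_mulVec, Matrix.vecMul_transpose]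
        simp only [hermForm, ← hσ, dotProduct]
        refine Finset.sum_congr rfl fun i _ => ?_
        rw [RingHom.map_mulVec]
      change (∀ u v, hermForm 3 F q ((g : Matrix (Fin 3) (Fin 3) F).mulVec u)
        ((g : Matrix _ _ F).mulVec v) = hermForm 3 F q u v) ↔ _
      simp only [key, forall_const]
      constructor
      · intro h
        ext i j
        have := h (Pi.single i 1) (Pi.single j 1)
        rw [show σ ∘ Pi.single j 1 = Pi.single j 1 by
          ext k; by_cases e : k = j <;> simp [Pi.single_apply, e]] at this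
        simp only [hermForm, ← hσ] at this
        simpa [Pi.single_apply, Matrix.one_apply, eq_comm] using this
      · intro h u v
        simp [h, hermForm, ← hσ, dotProduct]
    · obtain ⟨c, hc, e⟩ := H4.exists_norm_eq hq (y := 2⁻¹) (inv_ne_zero h2)
        (by rw [← hσ, map_inv₀, map_ofNat])
      exact ⟨c, hc, fun _ => by rw [hσ, mul_assoc, e, mul_inv_cancel₀ h2]⟩
    · obtain ⟨a, b, h⟩ := H4.exists_skew_pair hq hodd hσ
      exact ⟨a, b, h.1, fun _ => h.2⟩
  exact h.isSimple (QuotientGroup.mk' _) (QuotientGroup.mk'_surjective _)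
    (by rw [QuotientGroup.ker_mk']) S

end Cfsg.Agent.S5319
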