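import Cfsg.Statements.S5320
import Cfsg.Agent.H4.P4Mat

set_option autoImplicit false
open Cfsg

namespace Cfsg.Agent.S5320

/-- For a finite field F of odd order, the 2-fusion system of the projective symplectic group PSp(4,F) on a Sylow 2-subgroup is simple. -/
theorem result {F : Type*} [Field F] [Fintype F] (hodd : Fintype.card F % 2 = 1) (S : Sylow 2 (Cfsg.PSp 2 F)) :
    (Cfsg.groupFusionSystem (S : Subgroup (Cfsg.PSp 2 F))).IsSimple 2 := by
  obtain ⟨a, b, hab⟩ := H4.exists_sq_add_sq hodd (-1 : F)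
  obtain ⟨z, τ, i, j, ω, u, v, L, h⟩ := H4.Sp4.exists_p4 (H4.two_ne_zero_of_odd_card hodd) hab
  exact h.isSimple S

end Cfsg.Agent.S5320
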