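import Cfsg.Statements.S5328
import Cfsg.Agent.H9.Rel
import Cfsg.Agent.H9.Marks

set_option autoImplicit false
universe u
open Cfsg

namespace Cfsg.Agent.S5328

open Cfsg.Agent.H9 Cfsg.Agent.H9.Marks

theorem mark_compHom {L K : Type*} [Group L] [Group K] (X : Type*) [MulAction K X] (j : L →* K) (H : Subgroup L) :
    @mark L _ X (MulAction.compHom X j) H = mark X (H.map j) := by
  unfold mark
  congr 1
  ext x
  simp only [fixIn, Set.mem_univ, true_and, Set.mem_ofPred_eq, Subgroup.mem_map]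
  constructor
  · rintro h _ ⟨l, hl, rfl⟩
    exact h l hl
  · intro h l hl
    exact h _ ⟨l, hl, rfl⟩

/-- Every fusion system over a finite p-group S, saturated or not, is realized inside some finite group: there is a finite group G and an injective homomorphism ι of S into G such that the maps of the system are exactly the homomorphisms between subgroups of S that become conjugations by elements of G (the image of S need not be a Sylow p-subgroup of G). -/
theorem result {Ω : Type u} [Group Ω] {S : Subgroup Ω} [Finite S] (p : ℕ) [Fact p.Prime] (hS : IsPGroup p S) (F : Cfsg.FusionSystem S) : ∃ (G : Type u) (_ : Group G) (_ : Finite G) (ι : ↥S →* G), F.IsRealizedBy ι := by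
  classical
  let gr : Subgroup (S × S) → Set (Ω × Ω) := fun H => {z | ∃ w ∈ H, z = (((w : S × S).1 : Ω), (w.2 : Ω))}
  let 𝓗 : Set (Subgroup (S × S)) := {H | Rel F (gr H)}
  obtain ⟨m, ⟨X, _, _, hX⟩, hm0, hmp, hme⟩ := exists_realizable_of_family 𝓗 (by
      rintro H hH ⟨a, b⟩
      refine (((rel_conj (F := F) (S.inv_mem a.2)).comp hH).comp (rel_conj b.2)).mono ?_
      rintro _ ⟨_, ⟨w, hw, rfl⟩, rfl⟩
      refine ⟨w.2, ⟨w.1, ⟨Subtype.coe_prop _, ?_⟩, w, hw, rfl⟩, w.2.2, ?_⟩
      · simp [mul_assoc]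
      · simp)
    (by
      intro H hH K hK
      refine Rel.mono hH ?_
      rintro _ ⟨w, hw, rfl⟩
      exact ⟨w, hK hw, rfl⟩)
  have hstab : ∀ x : X, MulAction.stabilizer (S × S) x ∈ 𝓗 := by
    intro x
    by_contra h
    have h1 := hm0 _ h
    rw [← hX, mark, Set.ncard_eq_zero (Set.toFinite _)] at h1
    have : x ∈ fixIn (MulAction.stabilizer (S × S) x) (Set.univ : Set X) := ⟨trivial, fun h hh => hh⟩
    rw [h1] at this
    exact this
  obtain ⟨x₀, hx₀⟩ : ∃ x₀ : X, ∀ s : S, ((s, s) : S × S) • x₀ = x₀ := by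
    have h1 : ((MonoidHom.id S).prod (MonoidHom.id S)).range ∈ 𝓗 := by
      refine (rel_conj (F := F) S.one_mem).mono ?_
      rintro _ ⟨_, ⟨s, rfl⟩, rfl⟩
      simp
    have h2 := hmp _ h1
    rw [← hX, mark, Set.ncard_pos (Set.toFinite _)] at h2
    obtain ⟨x, -, hx⟩ := h2
    exact ⟨x, fun s => hx _ ⟨s, rfl⟩⟩
  let G : Subgroup (Equiv.Perm X) :=
    Subgroup.centralizer (Set.range fun s : S => MulAction.toPermHom (S × S) X (1, s))
  have hG : ∀ σ : Equiv.Perm X, σ ∈ G ↔ ∀ (s : S) (x : X), σ (((1, s) : S × S) • x) = ((1, s) : S × S) • σ x := by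
    intro σ
    simp only [G, Subgroup.mem_centralizer_iff, Set.mem_range, forall_exists_index, forall_apply_eq_imp_iff]
    refine forall_congr' fun s => ?_
    rw [Equiv.ext_iff]
    refine forall_congr' fun x => ?_
    simp [eq_comm]
  let ι₀ : S →* Equiv.Perm X := (MulAction.toPermHom (S × S) X).comp (MonoidHom.inl S S)
  have hι₀ : ∀ (s : S) (x : X), ι₀ s x = ((s, 1) : S × S) • x := fun _ _ => rfl
  have hι : ∀ s, ι₀ s ∈ G := by
    intro s
    rw [hG]
    intro t x
    simp [hι₀, smul_smul]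
  refine ⟨G, inferInstance, inferInstance, ι₀.codRestrict G hι, ?_, fun P hP φ hφS => ⟨fun hφ => ?_, ?_⟩⟩
  · rw [injective_iff_map_eq_one]
    intro u hu
    have h1 : ι₀ u = 1 := congrArg Subtype.val hu
    have h2 : ((u, 1) : S × S) • x₀ = x₀ := by rw [← hι₀, h1]; rfl
    have h3 := Rel.eq_one_of_snd (hstab x₀) (u := u) ⟨(u, 1), h2, rfl⟩
    exact Subtype.ext h3
  · let j₁ : P × S →* S × S := (Subgroup.inclusion hP).prodMap (MonoidHom.id S)
    let j₂ : P × S →* S × S := (φ.codRestrict S hφS).prodMap (MonoidHom.id S)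
    have hj₁ : Function.Injective j₁ := (Subgroup.inclusion_injective hP).prodMap Function.injective_id
    have hj₂ : Function.Injective j₂ :=
      Function.Injective.prodMap (f := φ.codRestrict S hφS)
        (fun a b h => F.injective_of_mem hφ (congrArg Subtype.val h)) Function.injective_id
    have : Finite P := Finite.of_injective _ (Subgroup.inclusion_injective hP)
    obtain ⟨e, he⟩ := @exists_equiv_of_marks (P × S) _ _ X X (MulAction.compHom X j₁) (MulAction.compHom X j₂)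
      _ _ (by
        intro H
        rw [mark_compHom, mark_compHom, hX, hX]
        have hiff : H.map j₁ ∈ 𝓗 ↔ H.map j₂ ∈ 𝓗 := by
          constructor
          · intro h
            refine ((rel_of_mem hφ).swap.comp h).mono ?_
            rintro _ ⟨_, ⟨w, hw, rfl⟩, rfl⟩
            exact ⟨w.1, ⟨w.1, rfl⟩, _, ⟨w, hw, rfl⟩, rfl⟩
          · intro h
            refine ((rel_of_mem hφ).comp h).mono ?_
            rintro _ ⟨_, ⟨w, hw, rfl⟩, rfl⟩
            exact ⟨φ w.1, ⟨w.1, rfl⟩, _, ⟨w, hw, rfl⟩, rfl⟩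
        by_cases h : H.map j₁ ∈ 𝓗
        · exact hme _ h _ (hiff.1 h)
            (by rw [Subgroup.card_map_of_injective hj₁, Subgroup.card_map_of_injective hj₂])
        · rw [hm0 _ h, hm0 _ (fun h' => h (hiff.2 h'))])
    have heG : e ∈ G := (hG e).2 fun s x => by
      have h1 : j₁ (1, s) = (1, s) := by simp [j₁]
      have h2 : j₂ (1, s) = (1, s) := by simp [j₂]
      have h3 : e (j₁ (1, s) • x) = j₂ (1, s) • e x := he (1, s) x
      rwa [h1, h2] at h3
    refine ⟨⟨e, heG⟩, fun x => ?_⟩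
    rw [eq_mul_inv_iff_mul_eq]
    ext y
    exact (he (x, 1) y).symm
  · rintro ⟨⟨σ, hσ⟩, h⟩
    refine mem_of_rel (Rel.mono (hstab (σ⁻¹ x₀)) ?_)
    rintro _ ⟨x, rfl⟩
    refine ⟨(⟨x, hP x.2⟩, ⟨φ x, hφS x⟩), ?_, rfl⟩
    have h1 : ι₀ ⟨φ x, hφS x⟩ = σ * ι₀ ⟨x, hP x.2⟩ * σ⁻¹ := congrArg Subtype.val (h x)
    rw [MulAction.mem_stabilizer_iff]
    apply σ.injective
    have h2 : ((⟨x, hP x.2⟩, ⟨φ x, hφS x⟩) : S × S) = (1, ⟨φ x, hφS x⟩) * (⟨x, hP x.2⟩, 1) := by simp
    rw [h2, mul_smul, (hG σ).1 hσ, ← hι₀]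
    have h3 := congrArg (fun τ : Equiv.Perm X => τ x₀) h1
    simp only [Equiv.Perm.mul_apply] at h3
    rw [← h3, hι₀, smul_smul]
    simpa using hx₀ ⟨φ x, hφS x⟩

end Cfsg.Agent.S5328
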