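import Cfsg.Statements.S5330
import Cfsg.Agent.H8.Tate
import Cfsg.Agent.H8.Ess

set_option autoImplicit false
open Cfsg

namespace Cfsg.Agent.S5330

/-- Let F be a saturated fusion system over a finite abelian p-group S. Then S is the internal direct product of the centre of the system and the focal subgroup: Z(F) ∩ foc(F) = 1 and Z(F)·foc(F) = S. -/
theorem result {Ω : Type*} [Group Ω] {S : Subgroup Ω} [Finite S] (p : ℕ) [Fact p.Prime] (hS : IsPGroup p S) (F : Cfsg.FusionSystem S) (hF : F.IsSaturated p) (hab : ∀ x ∈ S, ∀ y ∈ S, x * y = y * x) : F.center ⊓ F.focalSubgroup = ⊥ ∧ F.center ⊔ F.focalSubgroup = S := by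
  classical
  refine ⟨le_bot_iff.1 fun x hx => ?_, le_antisymm (sup_le F.center_le F.focalSubgroup_le)
    fun x hx => ?_⟩
  · have h1 : ⁅S, S⁆ ≤ ⊥ := Subgroup.commutator_le.2 fun a ha b hb =>
      Subgroup.mem_bot.2 (commutatorElement_eq_one_iff_mul_comm.2 (hab a ha b hb))
    exact h1 (H8.focal_inf_center_le hF hS ⟨hx.2, hx.1⟩)
  · letI : CommGroup S := { (inferInstance : Group S) with
      mul_comm := fun a b => Subtype.ext (hab a a.2 b b.2) }
    haveI := Fintype.ofFinite (F.autGroup S)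
    have hI : Inn S = ⊥ := eq_bot_iff.2 fun α hα => by
      obtain ⟨g, hg, h1⟩ := Fus.mem_Inn_iff.1 hα
      exact Subgroup.mem_bot.2 (MulEquiv.ext fun y => Subtype.ext (by
        rw [h1, hab g hg y y.2, mul_inv_cancel_right]; rfl))
    have hnd : ¬ p ∣ Fintype.card (F.autGroup S) := fun h => by
      obtain ⟨α, hα⟩ := exists_prime_orderOf_dvd_card p h
      have h2 : (α : MulAut S) ^ p ^ 1 = 1 := by
        rw [pow_one, ← Subgroup.coe_pow, ← hα, pow_orderOf_eq_one, Subgroup.coe_one]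
      have h3 := H8.mem_Inn_of_pElt hF α.2 ⟨1, h2⟩
      rw [hI, Subgroup.mem_bot] at h3
      rw [show α = 1 from Subtype.ext h3, orderOf_one] at hα
      exact (Fact.out : p.Prime).one_lt.ne hα
    let N : S := ∏ α : F.autGroup S, (α : MulAut S) ⟨x, hx⟩
    have hN : ∀ β : F.autGroup S, (β : MulAut S) N = N := fun β => by
      rw [map_prod]
      exact Fintype.prod_equiv (Equiv.mulLeft β) _ _ fun _ => rfl
    have hc : F.IsCentral (Subgroup.zpowers (N : Ω)) := by
      refine hF.isCentral_of_fix hS (Subgroup.zpowers_le.2 N.2) fun P σ hσ y hy hyN => ?_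
      obtain ⟨τ, hτ, h1⟩ := H8.exists_top_ext_of_comm hF hab hσ
      obtain ⟨k, rfl⟩ := hyN
      have h2 := congrArg Subtype.val (hN ⟨_, (Fus.mem_liftAut.1 hτ.mem_stab).2⟩)
      rw [Fus.resAut_apply (Fus.mem_liftAut.1 hτ.mem_stab).1] at h2
      rw [← h1 _ hy, hτ.homOn.map_zpow N.2, h2]
    have h3 : ((⟨x, hx⟩ : S) ^ Fintype.card (F.autGroup S))⁻¹ * N ∈ F.focalSubgroup.subgroupOf S := by
      rw [← Finset.card_univ, ← Finset.prod_const, ← Finset.prod_inv_distrib,
        ← Finset.prod_mul_distrib]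
      refine Subgroup.prod_mem _ fun α _ => ?_
      exact Subgroup.subset_closure ⟨S, _, ⟨x, hx⟩, (FusionSystem.mem_autGroup_iff_hom le_rfl).1 α.2, rfl⟩
    have h4 : x ^ Fintype.card (F.autGroup S) ∈ F.center ⊔ F.focalSubgroup := by
      have := Subgroup.mul_mem_sup (hc.le_center (Subgroup.mem_zpowers _))
        (F.focalSubgroup.inv_mem h3)
      simpa using this
    obtain ⟨k, hk⟩ := hS ⟨x, hx⟩
    refine Fus.mem_of_pow_of_coprime (Nat.Coprime.pow_left k
      ((Nat.Prime.coprime_iff_not_dvd Fact.out).2 hnd)) ?_ h4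
    rw [show x ^ p ^ k = 1 from congrArg Subtype.val hk]
    exact Subgroup.one_mem _

end Cfsg.Agent.S5330
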