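import Cfsg.Statements.S5331
import Cfsg.Agent.H8.SSAb

set_option autoImplicit false
open Cfsg

namespace Cfsg.Agent.S5331

/-- Let S be a finite abelian 2-group that is a direct product of cyclic groups of pairwise distinct orders 2^{a_1} < 2^{a_2} < ⋯ < 2^{a_n} (all a_i ≥ 1). Then every saturated fusion system over S is the inner one: its maps are exactly the conjugations by elements of S. -/
theorem result {Ω : Type*} [Group Ω] {S : Subgroup Ω} [Finite S] (n : ℕ) (a : Fin n → ℕ) (ha : StrictMono a) (ha1 : ∀ i, 1 ≤ a i) (e : ↥S ≃* Multiplicative ((i : Fin n) → ZMod (2 ^ a i))) (F : Cfsg.FusionSystem S) (hF : F.IsSaturated 2) (P : Subgroup Ω) : F.Hom P = (Cfsg.innerFusionSystem S).Hom P := by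
  have hS : IsPGroup 2 S := IsPGroup.of_equiv (IsPGroup.of_card (n := ∑ i, a i) (by
    simp [Nat.card_pi, Finset.prod_pow_eq_pow_sum])) e.symm
  have hn := F.stronglyClosed_top.isNormal_of_comm hF hS (le_bot_iff.1 (Subgroup.commutator_le.2
    fun a ha b hb => Subgroup.mem_bot.2 (commutatorElement_eq_one_iff_mul_comm.2
      (congrArg Subtype.val (e.injective (a₁ := ⟨a, ha⟩ * ⟨b, hb⟩) (a₂ := ⟨b, hb⟩ * ⟨a, ha⟩)
        (by rw [map_mul, map_mul, mul_comm]))))))
  exact congrArg (fun E => E.Hom P) (H8.eq_inner_of_isNormal hF hn ((H8.pFlag_of_distinct hS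
    ha.injective (e.trans (MulEquiv.piMultiplicative _)) _).isPGroup_two hS))

end Cfsg.Agent.S5331
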